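import Cfsg.Agent.Lib.Div.Rep

/-!
# Traces of averaging idempotents
-/

set_option autoImplicit false

namespace Cfsg.Lib.Div
open Module LinearMap

variable {H U : Type*} [Group H] [AddCommGroup U] [Module ℚ U]

/-- a faithful representation of rank at most two -/
structure DR (ρ : H →* End ℚ U) : Prop extends DR0 (Set.range ρ) where
  inj : Function.Injective ρ

/-- the dimension of the commutant -/
scoped notation:max "dd[" ρ "]" => Module.finrank ℚ (Cm (Set.range ρ))

/-- the character -/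
noncomputable abbrev th (ρ : H →* End ℚ U) (g : H) : ℚ := trace ℚ U (ρ g)

theorem bi_rho (ρ : H →* End ℚ U) (g : H) : ρ g ∈ Bi (Set.range ρ) := mem_bi ⟨g, rfl⟩

theorem th_conj (ρ : H →* End ℚ U) (g h : H) : th ρ (h * g * h⁻¹) = th ρ g := by
  rw [th, map_mul, trace_mul_comm, ← map_mul, inv_mul_cancel_left]

theorem th_inv [Finite H] [FiniteDimensional ℚ U] (ρ : H →* End ℚ U) (g : H) : th ρ g⁻¹ = th ρ g := by
  classical
  have := Fintype.ofFinite H
  let b := Module.finBasis ℚ U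
  let M : H → Matrix _ _ ℚ := fun g => toMatrix b b (ρ g)
  have hm : ∀ g h, M (g * h) = M g * M h := fun g h => by simp only [M, map_mul, toMatrix_mul]
  have h1 : M 1 = 1 := by simp [M]
  let P := ∑ h, (M h).transpose * M h
  have hP : IsUnit P := by
    rw [← Matrix.mulVec_injective_iff_isUnit]
    refine (injective_iff_map_eq_zero P.mulVecLin).2 fun v hv => ?_
    have a1 : ∑ h, dotProduct ((M h).mulVec v) ((M h).mulVec v) = 0 := by
      have := congrArg (dotProduct v) hv
      simp only [P, Matrix.mulVecLin_apply, Matrix.sum_mulVec, dotProduct_sum, dotProduct_zero,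
        ← Matrix.mulVec_mulVec, Matrix.dotProduct_mulVec v, Matrix.vecMul_transpose] at this
      exact this
    have a2 := (Finset.sum_eq_zero_iff_of_nonneg fun h _ =>
      Finset.sum_nonneg fun i _ => mul_self_nonneg _).1 a1 1 (Finset.mem_univ _)
    rw [h1, Matrix.one_mulVec] at a2
    exact dotProduct_self_eq_zero.1 a2
  have a3 : (M g).transpose * P = P * M g⁻¹ := by
    simp only [P, Finset.mul_sum, Finset.sum_mul, mul_assoc, ← hm]
    refine Fintype.sum_equiv (Equiv.mulRight g) _ _ fun h => ?_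
    simp only [Equiv.coe_mulRight, mul_inv_cancel_right]
    rw [hm, Matrix.transpose_mul, mul_assoc]
  obtain ⟨u, hu⟩ := hP
  have a4 : M g⁻¹ = u⁻¹.1 * (M g).transpose * u.1 := by rw [mul_assoc, hu, a3, ← hu]; simp
  rw [th, th, trace_eq_matrix_trace ℚ b, trace_eq_matrix_trace ℚ b]
  show (M g⁻¹).trace = (M g).trace
  rw [a4, Matrix.trace_mul_cycle]; simp

theorem mom [Fintype H] [FiniteDimensional ℚ U] (ρ : H →* End ℚ U) :
    ∑ g, th ρ g ^ 2 = Nat.card H * dd[ρ] := by
  have h0 : (Nat.card H : ℚ) ≠ 0 := by simp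
  let _ := invertibleOfNonzero h0
  have h1 := Representation.card_inv_mul_sum_char_eq_finrank (Representation.linHom ρ ρ)
  have h2 : Representation.invariants (Representation.linHom ρ ρ) = (Cm (Set.range ρ)).toSubmodule := by
    ext f
    simp only [Representation.mem_invariants, Representation.linHom_apply, Subalgebra.mem_toSubmodule,
      Subalgebra.mem_centralizer_iff, Set.forall_mem_range]
    refine forall_congr' fun g => ?_
    change ρ g * (f * ρ g⁻¹) = f ↔ _
    constructor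
    · intro e; nth_rw 2 [← e]; simp only [mul_assoc, ← map_mul, inv_mul_cancel, map_one, mul_one]
    · intro e; rw [← mul_assoc, e, mul_assoc, ← map_mul, mul_inv_cancel, map_one, mul_one]
  rw [h2] at h1
  simp only [Representation.char_linHom] at h1
  rw [← eq_inv_mul_iff_mul_eq₀ (inv_ne_zero h0), inv_inv] at h1
  refine Eq.trans (Finset.sum_congr rfl fun g _ => ?_) h1
  rw [sq]; exact congrArg (· * th ρ g) (th_inv ρ g).symm

theorem mom_ge [Finite H] [FiniteDimensional ℚ U] (ρ : H →* End ℚ U) (X : Set H) {c : ℚ}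
    (h : ∀ g ∈ X, c ≤ th ρ g ^ 2) : X.ncard * c ≤ Nat.card H * dd[ρ] := by
  classical
  have := Fintype.ofFinite H
  rw [← mom, Set.ncard_eq_toFinset_card', ← nsmul_eq_mul, ← Finset.sum_const]
  exact (Finset.sum_le_sum fun g hg => h g (by simpa using hg)).trans
    (Finset.sum_le_sum_of_subset_of_nonneg (Finset.subset_univ _) fun _ _ _ => sq_nonneg _)

/-- the averaging operator -/
noncomputable def avg (ρ : H →* End ℚ U) (K : Subgroup H) : End ℚ U := (Nat.card K : ℚ)⁻¹ • ∑ᶠ k : K, ρ k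

section
variable (ρ : H →* End ℚ U) {K : Subgroup H}

theorem avg_eq [Fintype K] : avg ρ K = (Nat.card K : ℚ)⁻¹ • ∑ k : K, ρ k := by
  rw [avg, finsum_eq_sum_of_fintype]

variable [Finite H]

theorem mul_avg {g : H} (hg : g ∈ K) : ρ g * avg ρ K = avg ρ K := by
  have := Fintype.ofFinite K
  rw [avg_eq, mul_smul_comm, Finset.mul_sum]
  congr 1
  exact Fintype.sum_equiv (Equiv.mulLeft ⟨g, hg⟩) _ _ fun k => by simp

theorem avg_mul {g : H} (hg : g ∈ K) : avg ρ K * ρ g = avg ρ K := by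
  have := Fintype.ofFinite K
  rw [avg_eq, smul_mul_assoc, Finset.sum_mul]
  congr 1
  exact Fintype.sum_equiv (Equiv.mulRight ⟨g, hg⟩) _ _ fun k => by simp

theorem avg_idem : avg ρ K * avg ρ K = avg ρ K := by
  have := Fintype.ofFinite K
  nth_rw 1 [avg_eq]
  rw [smul_mul_assoc, Finset.sum_mul, Finset.sum_congr rfl fun k _ => mul_avg ρ k.2]
  simp [← Nat.cast_smul_eq_nsmul ℚ, smul_smul]

theorem avg_bi : avg ρ K ∈ Bi (Set.range ρ) := by
  have := Fintype.ofFinite K
  rw [avg_eq]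
  exact Subalgebra.smul_mem _ (Subalgebra.sum_mem _ fun k _ => bi_rho ρ _) _

theorem avg_comm {g : H} (hg : g ∈ Subgroup.normalizer (K : Set H)) : ρ g * avg ρ K = avg ρ K * ρ g := by
  have := Fintype.ofFinite K
  rw [avg_eq, smul_mul_assoc, mul_smul_comm, Finset.mul_sum, Finset.sum_mul]
  congr 1
  refine Fintype.sum_equiv (K.normalizerMonoidHom ⟨g, hg⟩).toEquiv _ _ fun k => ?_
  rw [← map_mul, ← map_mul]
  congr 1
  exact (inv_mul_cancel_right _ _).symm

theorem avg_comm' {C : Subgroup H} (hC : C ≤ Subgroup.normalizer (K : Set H)) :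
    avg ρ C * avg ρ K = avg ρ K * avg ρ C := by
  have := Fintype.ofFinite C
  rw [avg_eq ρ (K := C), smul_mul_assoc, mul_smul_comm, Finset.mul_sum, Finset.sum_mul]
  exact congrArg _ (Finset.sum_congr rfl fun k _ => avg_comm ρ (hC k.2))

omit [Finite H] in
theorem tr_avg [Fintype K] : Nat.card K * trace ℚ U (avg ρ K) = ∑ k : K, th ρ k := by
  rw [avg_eq, map_smul, map_sum, smul_eq_mul, mul_inv_cancel_left₀ (by simp)]

theorem frob_eq [FiniteDimensional ℚ U] {C : Subgroup H} (hC : C ≤ Subgroup.normalizer (K : Set H))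
    (hf : ∀ c ∈ C, c ≠ 1 → ∀ k ∈ K, k * c = c * k → k = 1) :
    Nat.card C * trace ℚ U (avg ρ K * avg ρ C) =
      trace ℚ U (avg ρ K) + Nat.card C * trace ℚ U (avg ρ C) - finrank ℚ U := by
  classical
  have := Fintype.ofFinite C
  have := Fintype.ofFinite K
  have h0 : (Nat.card K : ℚ) ≠ 0 := by simp
  have h1 : ∀ c : C, c ≠ 1 → trace ℚ U (avg ρ K * ρ c) = th ρ c := by
    intro c hc
    let φ : K → K := fun k => ⟨k * (c * k⁻¹ * c⁻¹), K.mul_mem k.2 ((hC c.2 _).1 (K.inv_mem k.2))⟩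
    have hφ : Function.Injective φ := fun a b e => by
      have e1 : (a : H) * (c * (a : H)⁻¹ * (c : H)⁻¹) = b * (c * (b : H)⁻¹ * (c : H)⁻¹) := congrArg Subtype.val e
      have := hf c c.2 (by simpa using hc) ((b : H)⁻¹ * a) (K.mul_mem (K.inv_mem b.2) a.2) (by
        calc (b : H)⁻¹ * a * c = (b : H)⁻¹ * (a * (c * (a : H)⁻¹ * (c : H)⁻¹)) * c * a := by group
          _ = _ := by rw [e1]; group)
      exact (Subtype.ext (inv_mul_eq_one.1 this)).symm
    rw [avg_eq, smul_mul_assoc, map_smul, Finset.sum_mul, map_sum,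
      ← (Finite.injective_iff_bijective.1 hφ).sum_comp]
    have : ∀ k : K, trace ℚ U (ρ (φ k) * ρ c) = th ρ c := fun k => by
      rw [← map_mul, ← th_conj ρ c k]; congr 2; simp [φ, mul_assoc]
    simp [this]
  rw [tr_avg, avg_eq ρ (K := C), mul_smul_comm, map_smul, smul_eq_mul, mul_inv_cancel_left₀ (by simp),
    Finset.mul_sum, map_sum, ← Finset.add_sum_erase _ _ (Finset.mem_univ 1),
    ← Finset.add_sum_erase _ _ (Finset.mem_univ (1 : C)),
    Finset.sum_congr rfl fun c hc => h1 c (Finset.ne_of_mem_erase hc)]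
  simp [th, add_sub_assoc]

end

namespace DR
variable {ρ : H →* End ℚ U} (h : DR ρ)
include h

theorem inv_cases {t : H} (tt : t * t = 1) (t1 : t ≠ 1) : ρ t = -1 ∨ (th ρ t = 0 ∧ finrank ℚ U = 2 * dd[ρ]) := by
  have := h.fin
  have e2 : ρ t * ρ t = 1 := by rw [← map_mul, tt, map_one]
  obtain ⟨m, h1, h2, h3⟩ := h.tr (f := (2 : ℚ)⁻¹ • (1 + ρ t))
    (Subalgebra.smul_mem _ (add_mem (one_mem _) (bi_rho ρ t)) _) (by
      rw [smul_mul_smul_comm, add_mul, mul_add, mul_add, e2]; simp only [mul_one, one_mul]; module)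
  by_cases m0 : m = 0
  · left
    have := h2 m0
    rw [smul_eq_zero] at this
    exact eq_neg_of_add_eq_zero_right (this.resolve_left (by norm_num))
  right
  have h4 := h3 fun e => t1 (h.inj (by
    rw [map_one]; have := congrArg ((2 : ℚ) • ·) e
    simp only [smul_smul] at this; norm_num at this
    rw [two_smul] at this; exact add_left_cancel this))
  have h5 := h.rk; have h6 := h.dpos; have h7 := h.le
  have : m = 1 := by
    have : m < 2 := by by_contra c; nlinarith
    omega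
  subst this
  have h8 : finrank ℚ U = 2 * dd[ρ] := by omega
  refine ⟨?_, h8⟩
  simp only [map_smul, map_add, trace_one, h8, smul_eq_mul] at h1
  push_cast at h1
  linarith

theorem four {a b : H} (aa : a * a = 1) (bb : b * b = 1) (ab : a * b = b * a) (a1 : a ≠ 1) (b1 : b ≠ 1)
    (e1 : a * b ≠ 1) : ρ a = -1 ∨ ρ b = -1 ∨ ρ (a * b) = -1 := by
  have := h.fin
  by_contra! c
  obtain ⟨h1, h0⟩ := (h.inv_cases aa a1).resolve_left c.1
  obtain ⟨h2, -⟩ := (h.inv_cases bb b1).resolve_left c.2.1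
  obtain ⟨h3, -⟩ := (h.inv_cases (t := a * b) (by
    rw [mul_assoc, ← mul_assoc b, ← ab, mul_assoc, bb, mul_one, aa]) e1).resolve_left c.2.2
  have e2 : ρ a * ρ a = 1 := by rw [← map_mul, aa, map_one]
  have e3 : ρ b * ρ b = 1 := by rw [← map_mul, bb, map_one]
  have e4 : ρ b * ρ a = ρ a * ρ b := by rw [← map_mul, ← ab, map_mul]
  have e5 : (1 + ρ a) * (1 + ρ a) = (2 : ℚ) • (1 + ρ a) := by
    rw [add_mul, mul_add, mul_add, e2]; simp only [mul_one, one_mul]; module
  have e6 : (1 + ρ b) * (1 + ρ b) = (2 : ℚ) • (1 + ρ b) := by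
    rw [add_mul, mul_add, mul_add, e3]; simp only [mul_one, one_mul]; module
  have e7 : (1 + ρ b) * (1 + ρ a) = (1 + ρ a) * (1 + ρ b) := by
    simp only [add_mul, mul_add, mul_one, one_mul, e4]; abel
  obtain ⟨m, h4, -⟩ := h.tr (f := (4 : ℚ)⁻¹ • ((1 + ρ a) * (1 + ρ b)))
    (Subalgebra.smul_mem _ (mul_mem (add_mem (one_mem _) (bi_rho ρ a)) (add_mem (one_mem _) (bi_rho ρ b))) _) (by
      rw [smul_mul_smul_comm, mul_assoc, ← mul_assoc (1 + ρ b), e7, mul_assoc, e6, ← mul_assoc, e5,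
        smul_mul_smul_comm, smul_smul]; norm_num)
  simp only [add_mul, mul_add, mul_one, one_mul, map_smul, map_add, trace_one, h0, ← map_mul, h1, h2, h3,
    smul_eq_mul] at h4
  have h5 : (1 : ℚ) * dd[ρ] = (2 * m) * dd[ρ] := by push_cast at h4; linarith
  have h6 := mul_right_cancel₀ (by exact_mod_cast h.dpos.ne') h5
  norm_cast at h6
  omega

/-- a nontrivial normal subgroup has no fixed points -/
theorem ker_eq_bot {z : H} (hz : ∀ g, g * z = z * g) (z1 : z ≠ 1) : ker (ρ z - 1) = ⊥ := by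
  refine (h.irr _ ?_).resolve_right fun e => z1 (h.inj ?_)
  · rintro _ ⟨g, rfl⟩ w hw
    rw [mem_ker, LinearMap.sub_apply, End.one_apply, sub_eq_zero] at hw ⊢
    rw [← End.mul_apply, ← map_mul, ← hz, map_mul, End.mul_apply, hw]
  · rw [map_one, ← sub_eq_zero, ← ker_eq_top, e]

theorem central_neg {z : H} (hz : ∀ g, g * z = z * g) (zz : z * z = 1) (z1 : z ≠ 1) : ρ z = -1 := by
  refine eq_neg_of_add_eq_zero_left (LinearMap.ext fun w => ?_)
  refine (Submodule.mem_bot ℚ).1 (h.ker_eq_bot hz z1 ▸ mem_ker.2 ?_)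
  rw [← End.mul_apply, mul_add, sub_mul, ← map_mul, zz]; simp

theorem central_of_neg {z : H} (e : ρ z = -1) (g : H) : g * z = z * g :=
  h.inj (by rw [map_mul, map_mul, e]; simp)

variable [Finite H]

theorem tr_avg_cases {K : Subgroup H} (hK : K ≠ ⊥) :
    avg ρ K = 0 ∨ (trace ℚ U (avg ρ K) = dd[ρ] ∧ finrank ℚ U = 2 * dd[ρ]) := by
  obtain ⟨m, h1, h2, h3⟩ := h.tr (avg_bi ρ (K := K)) (avg_idem ρ)
  have h4 := h3 fun e => hK (eq_bot_iff.2 fun k hk => h.inj (by simpa [e] using mul_avg ρ hk))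
  have h5 := h.rk; have h6 := h.dpos; have h7 := h.le
  have : m < 2 := by by_contra c; nlinarith
  interval_cases m
  · exact .inl (h2 rfl)
  · exact .inr ⟨by simpa using h1, by omega⟩

theorem frob {K C : Subgroup H} (hK : K ≠ ⊥) (hC : C ≤ Subgroup.normalizer (K : Set H))
    (hf : ∀ c ∈ C, c ≠ 1 → ∀ k ∈ K, k * c = c * k → k = 1) :
    Nat.card C = 1 ∨ (Nat.card C = 2 ∧ avg ρ K = 0) := by
  have := h.fin
  have h0 := frob_eq ρ hC hf
  obtain ⟨m1, h1, -⟩ := h.tr (mul_mem (avg_bi ρ (K := K)) (avg_bi ρ (K := C))) (by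
    rw [mul_assoc, ← mul_assoc (avg ρ C), avg_comm' ρ hC, mul_assoc, avg_idem, ← mul_assoc, avg_idem])
  obtain ⟨m2, h2, -⟩ := h.tr (avg_bi ρ (K := C)) (avg_idem ρ)
  have hd : (dd[ρ] : ℚ) ≠ 0 := by exact_mod_cast h.dpos.ne'
  rw [h1, h2] at h0
  have key : ∀ j : ℤ, (Nat.card C : ℚ) * (m2 - m1) * dd[ρ] = j * dd[ρ] → (Nat.card C : ℤ) ∣ j := fun j e =>
    ⟨m2 - m1, by exact_mod_cast (mul_right_cancel₀ hd e).symm⟩
  rcases h.tr_avg_cases hK with e | ⟨e, e'⟩
  · rw [e, map_zero] at h0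
    rcases h.rk with c | c <;> rw [c] at h0
    · exact .inl (by exact_mod_cast Int.eq_one_of_dvd_one (by simp) (key 1 (by push_cast; linarith)))
    · have := key 2 (by push_cast at h0 ⊢; linarith)
      have := (Nat.dvd_prime Nat.prime_two).1 (by exact_mod_cast this)
      exact this.imp_right fun x => ⟨x, e⟩
  · rw [e, e'] at h0
    exact .inl (by exact_mod_cast Int.eq_one_of_dvd_one (by simp) (key 1 (by push_cast at h0 ⊢; linarith)))

end DR

end Cfsg.Lib.Div
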