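import Cfsg.Agent.Lib.Div.Char
import Cfsg.Agent.Lib.PGroup.CyclicIndex
import Cfsg.Agent.Lib.Quad.BaerSuzuki
import Cfsg.Agent.Lib.Transfer.Thompson

/-!
# Subgroups of odd prime-power order
-/

set_option autoImplicit false

namespace Cfsg.Lib.Div
open Module LinearMap Subgroup

variable {H U : Type*} [Group H] [AddCommGroup U] [Module ℚ U]

/-- the fixed space -/
abbrev Fx (ρ : H →* End ℚ U) (g : H) : Submodule ℚ U := LinearMap.ker (ρ g - 1)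

theorem mem_fx {ρ : H →* End ℚ U} {g : H} {v : U} : v ∈ Fx ρ g ↔ ρ g v = v := by
  rw [LinearMap.mem_ker, LinearMap.sub_apply, End.one_apply, sub_eq_zero]

theorem rho_mul (ρ : H →* End ℚ U) (g h : H) (v : U) : ρ (g * h) v = ρ g (ρ h v) := by rw [map_mul]; rfl

theorem es_fx (ρ : H →* End ℚ U) (g : H) : Es (Set.range ρ) (Fx ρ g) := es_ker (sub_mem (bi_rho ρ g) (one_mem _))

theorem sum_mem_fx (ρ : H →* End ℚ U) {g : H} {p : ℕ} (hg : g ^ p = 1) (v : U) :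
    ∑ i ∈ Finset.range p, ρ (g ^ i) v ∈ Fx ρ g := by
  rw [mem_fx, map_sum]
  simp only [← rho_mul, ← pow_succ']
  have := Finset.sum_range_succ (fun i => ρ (g ^ i) v) p
  rw [Finset.sum_range_succ', hg, pow_zero] at this
  exact add_right_cancel this

theorem top_of_ea (ρ : H →* End ℚ U) {p : ℕ} [hp : Fact p.Prime] {A : Subgroup H}
    (hA : IsElementaryAbelian p A) (hc : Nat.card A = p ^ 2) {W : Submodule ℚ U}
    (h : ∀ a ∈ A, a ≠ 1 → Fx ρ a ≤ W) : W = ⊤ := by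
  have p1 := hp.out.one_lt
  have : Finite A := Nat.finite_of_card_ne_zero (by rw [hc]; positivity)
  obtain ⟨x, hx, x1⟩ : ∃ x ∈ A, x ≠ 1 := by
    by_contra! c
    rw [(eq_bot_iff_forall A).2 c, card_bot] at hc
    nlinarith
  have ox : orderOf x = p := orderOf_eq_prime (hA.2 x hx) x1
  obtain ⟨y, hy, yx⟩ : ∃ y ∈ A, y ∉ zpowers x := by
    by_contra! c
    have := card_dvd_of_le (show A ≤ zpowers x from c)
    rw [hc, Nat.card_zpowers, ox] at this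
    have := Nat.le_of_dvd (by omega) this
    nlinarith
  have hxy : Commute x y := by have := hA.1; exact setLike_mul_comm hx hy
  refine eq_top_iff.2 fun v _ => ?_
  have h1 : ∑ c ∈ Finset.range p, ∑ j ∈ Finset.range p, ρ ((x ^ c * y) ^ j) v ∈ W :=
    W.sum_mem fun c _ => h _ (mul_mem (pow_mem hx c) hy) (fun e => yx (by
      rw [eq_inv_of_mul_eq_one_right e]; exact inv_mem (pow_mem (mem_zpowers x) c)))
      (sum_mem_fx ρ (hA.2 _ (mul_mem (pow_mem hx c) hy)) v)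
  rw [Finset.sum_comm, ← Finset.add_sum_erase _ _ (Finset.mem_range.2 (by omega : 0 < p))] at h1
  have h2 : ∑ j ∈ (Finset.range p).erase 0, ∑ c ∈ Finset.range p, ρ ((x ^ c * y) ^ j) v ∈ W :=
    W.sum_mem fun j hj => by
      simp only [Finset.mem_erase, Finset.mem_range] at hj
      simp only [((hxy.pow_left _).mul_pow j), ← pow_mul, mul_comm _ j]
      simp only [pow_mul, rho_mul]
      exact h _ (pow_mem hx j) (pow_ne_one_of_lt_orderOf hj.1 (ox ▸ hj.2))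
        (sum_mem_fx ρ (hA.2 _ (pow_mem hx j)) _)
  have h3 := (W.add_mem_iff_left h2).1 h1
  simp only [pow_zero, map_one, End.one_apply, Finset.sum_const, Finset.card_range] at h3
  rwa [← Nat.cast_smul_eq_nsmul ℚ, W.smul_mem_iff (by exact_mod_cast hp.out.ne_zero)] at h3

/-- `g` maps `V` onto `W` -/
def Mv (ρ : H →* End ℚ U) (g : H) (V W : Submodule ℚ U) : Prop := ∀ v, v ∈ V ↔ ρ g v ∈ W

theorem Mv.trans {ρ : H →* End ℚ U} {g h : H} {V W X : Submodule ℚ U} (h1 : Mv ρ g V W) (h2 : Mv ρ h W X) :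
    Mv ρ (h * g) V X := fun v => by rw [rho_mul, ← h2, ← h1]

theorem Mv.symm {ρ : H →* End ℚ U} {g : H} {V W : Submodule ℚ U} (h1 : Mv ρ g V W) : Mv ρ g⁻¹ W V := fun v => by
  rw [h1, ← rho_mul]; simp

theorem mv_fx (ρ : H →* End ℚ U) (g x : H) : Mv ρ g (Fx ρ x) (Fx ρ (g * x * g⁻¹)) := fun v => by
  rw [mem_fx, mem_fx, ← rho_mul, inv_mul_cancel_right, rho_mul]
  refine ⟨congrArg _, fun e => ?_⟩
  have := congrArg (ρ g⁻¹) e
  rwa [← rho_mul, ← rho_mul _ g⁻¹, inv_mul_cancel, map_one, End.one_apply, End.one_apply] at this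

/-- the stabiliser of a subspace -/
def St (ρ : H →* End ℚ U) (V : Submodule ℚ U) : Subgroup H where
  carrier := {g | Mv ρ g V V}
  mul_mem' := fun h1 h2 => h2.trans h1
  one_mem' := fun v => by simp
  inv_mem' := fun h => h.symm

theorem mem_st_fx (ρ : H →* End ℚ U) {g x : H} (h : g * x = x * g) : g ∈ St ρ (Fx ρ x) := by
  have := mv_fx ρ g x
  rwa [h, mul_inv_cancel_right] at this

theorem eq_top_of_perfect [Finite H] (hP : commutator H = ⊤) {M : Subgroup H}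
    (h : ∀ a ∉ M, ∀ b ∉ M, a * b ∈ M) : M = ⊤ := by
  by_contra c
  obtain ⟨a, ha⟩ : ∃ a, a ∉ M := by simpa [Subgroup.eq_top_iff'] using c
  have h2 : M.index = 2 := index_eq_two_iff.2 ⟨a, fun b => by
    by_cases hb : b ∈ M
    · exact .inr ⟨hb, fun e => ha ((M.mul_mem_cancel_left hb).1 e)⟩
    · exact .inl ⟨h _ hb _ ha, hb⟩⟩
  have := normal_of_index_eq_two h2
  exact pResidual_eq_top_iff.1 (pResidual_eq_top_of_commutator_eq_top (p := 2) hP) M this h2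

namespace DR
variable {ρ : H →* End ℚ U} (h : DR ρ)
include h

theorem fx_ne {g : H} (g1 : g ≠ 1) : Fx ρ g ≠ ⊤ := fun e =>
  g1 (h.inj (by rw [map_one, ← sub_eq_zero]; exact LinearMap.ker_eq_top.1 e))

theorem vv {p : ℕ} [hp : Fact p.Prime] {A : Subgroup H} (hA : IsElementaryAbelian p A) (hc : Nat.card A = p ^ 2) :
    ∃ x ∈ A, ∃ y ∈ A, x ≠ 1 ∧ y ≠ 1 ∧ IsCompl (Fx ρ x) (Fx ρ y) := by
  have := h.fin
  have := Module.nontrivial_of_finrank_pos h.pos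
  obtain ⟨x, hx, x1, hx0⟩ : ∃ x ∈ A, x ≠ 1 ∧ Fx ρ x ≠ ⊥ := by
    by_contra! c
    exact bot_ne_top (top_of_ea ρ hA hc fun a ha a1 => (c a ha a1).le)
  obtain ⟨y, hy, y1, hy0⟩ : ∃ y ∈ A, y ≠ 1 ∧ ¬ Fx ρ y ≤ Fx ρ x := by
    by_contra! c
    exact h.fx_ne x1 (top_of_ea ρ hA hc c)
  have a1 := (h.dich (es_fx ρ y) (es_fx ρ x) (h.fx_ne y1)).resolve_left hy0
  obtain ⟨a2, a3⟩ := h.rk_one (es_fx ρ x) hx0 (h.fx_ne x1)
  obtain ⟨a4, -⟩ := h.rk_one (es_fx ρ y) (fun e => hy0 (e ▸ bot_le)) (h.fx_ne y1)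
  rw [inf_comm] at a1
  refine ⟨x, hx, y, hy, x1, y1, disjoint_iff.2 a1, codisjoint_iff.2 (Submodule.eq_top_of_finrank_eq ?_)⟩
  have := Submodule.finrank_sup_add_finrank_inf_eq (Fx ρ x) (Fx ρ y)
  rw [a1, finrank_bot] at this
  omega

section
variable {x y : H} (x1 : x ≠ 1) (y1 : y ≠ 1) (hc : IsCompl (Fx ρ x) (Fx ρ y))
include x1 y1 hc

theorem fx_cases {g : H} (h1 : g ∈ St ρ (Fx ρ x)) (h2 : g ∈ St ρ (Fx ρ y)) (g1 : g ≠ 1) (h0 : Fx ρ g ≠ ⊥) :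
    Fx ρ g = Fx ρ x ∨ Fx ρ g = Fx ρ y := by
  have := h.fin
  have key : ∀ {x}, x ≠ 1 → Fx ρ x ⊓ Fx ρ g ≠ ⊥ → Fx ρ g = Fx ρ x := fun {x} x1 e => by
    have a1 := (h.dich (es_fx ρ x) (es_fx ρ g) (h.fx_ne x1)).resolve_right e
    have a2 := (h.dich (es_fx ρ g) (es_fx ρ x) (h.fx_ne g1)).resolve_right (by rwa [inf_comm])
    exact le_antisymm a2 a1
  by_contra! c
  have b1 : Fx ρ x ⊓ Fx ρ g = ⊥ := by_contra fun e => c.1 (key x1 e)
  have b2 : Fx ρ y ⊓ Fx ρ g = ⊥ := by_contra fun e => c.2 (key y1 e)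
  refine h0 (eq_bot_iff.2 fun v hv => ?_)
  obtain ⟨a, ha, b, hb, rfl⟩ := Submodule.mem_sup.1 (hc.sup_eq_top ▸ Submodule.mem_top : v ∈ Fx ρ x ⊔ Fx ρ y)
  rw [mem_fx, map_add] at hv
  have e1 : ρ g a - a = b - ρ g b := by rw [sub_eq_sub_iff_add_eq_add, hv, add_comm]
  have e2 : ρ g a - a ∈ Fx ρ x ⊓ Fx ρ y := ⟨sub_mem ((h1 a).1 ha) ha, e1 ▸ sub_mem hb ((h2 b).1 hb)⟩
  rw [hc.inf_eq_bot, Submodule.mem_bot] at e2
  have a0 : a = 0 := (Submodule.mem_bot ℚ).1 (b1 ▸ ⟨ha, mem_fx.2 (sub_eq_zero.1 e2)⟩)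
  have b0 : b = 0 := (Submodule.mem_bot ℚ).1 (b2 ▸ ⟨hb, mem_fx.2 (sub_eq_zero.1 (e1 ▸ e2)).symm⟩)
  simp [a0, b0]

theorem swap {g : H} (h1 : g * x * g⁻¹ ∈ St ρ (Fx ρ x) ⊓ St ρ (Fx ρ y))
    (h2 : g * y * g⁻¹ ∈ St ρ (Fx ρ x) ⊓ St ρ (Fx ρ y)) (hg : g ∉ St ρ (Fx ρ x) ⊓ St ρ (Fx ρ y)) :
    Mv ρ g (Fx ρ x) (Fx ρ y) ∧ Mv ρ g (Fx ρ y) (Fx ρ x) := by
  have ne : ∀ {x : H} {W}, Mv ρ g (Fx ρ x) W → Fx ρ x ≠ ⊥ → W ≠ ⊥ := fun {x W} m e c =>
    e (eq_bot_iff.2 fun v hv => by simpa [← rho_mul] using congrArg (ρ g⁻¹) (c.le ((m v).1 hv)))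
  have x0 : Fx ρ x ≠ ⊥ := fun e => h.fx_ne y1 (by simpa [e] using hc.sup_eq_top)
  have y0 : Fx ρ y ≠ ⊥ := fun e => h.fx_ne x1 (by simpa [e] using hc.sup_eq_top)
  have a1 := mv_fx ρ g x
  have a2 := mv_fx ρ g y
  have xy : ∀ {W}, Mv ρ g (Fx ρ x) W → Mv ρ g (Fx ρ y) W → False := fun m1 m2 => x0 (by
    have : Fx ρ x = Fx ρ y := Submodule.ext fun v => (m1 v).trans (m2 v).symm
    simpa [this] using hc.inf_eq_bot)
  rcases h.fx_cases x1 y1 hc h1.1 h1.2 (by simpa using x1) (ne a1 x0) with e1 | e1 <;>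
    rcases h.fx_cases x1 y1 hc h2.1 h2.2 (by simpa using y1) (ne a2 y0) with e2 | e2 <;> rw [e1] at a1 <;>
    rw [e2] at a2
  · exact (xy a1 a2).elim
  · exact (hg ⟨a1, a2⟩).elim
  · exact ⟨a1, a2⟩
  · exact (xy a1 a2).elim

end

variable [Finite H]

theorem comm_on {p : ℕ} [Fact p.Prime] (p2 : p ≠ 2) {M : Subgroup H} (hM : IsPGroup p M) {x : H} (x1 : x ≠ 1)
    (x0 : Fx ρ x ≠ ⊥) (hx : M ≤ St ρ (Fx ρ x)) {a b : H} (ha : a ∈ M) (hb : b ∈ M) :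
    Fx ρ x ≤ Fx ρ ((a * b)⁻¹ * (b * a)) := by
  let σ : M →* End ℚ (Fx ρ x) :=
    { toFun := fun m => (ρ m).restrict fun v hv => (hx m.2 v).1 hv
      map_one' := LinearMap.ext fun w => Subtype.ext (by simp)
      map_mul' := fun g h => LinearMap.ext fun w => Subtype.ext (rho_mul ρ _ _ _) }
  have hσ : ∀ m : M, m ∈ σ.ker ↔ Fx ρ x ≤ Fx ρ m := fun m =>
    ⟨fun e v hv => mem_fx.2 (congrArg (fun F : End ℚ (Fx ρ x) => (F ⟨v, hv⟩).1) (MonoidHom.mem_ker.1 e)),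
      fun e => LinearMap.ext fun v => Subtype.ext (mem_fx.1 (e v.2))⟩
  have : IsCyclic (M ⧸ σ.ker) := pg_isCyclic_of_rank_one p2 (hM.to_quotient _) fun A hA hc => by
    have := top_of_ea (QuotientGroup.lift σ.ker σ le_rfl) hA hc (W := ⊥) fun q _ q1 v hv => by
      obtain ⟨m, rfl⟩ := QuotientGroup.mk_surjective q
      have a1 := (h.dich (es_fx ρ x) (es_fx ρ m) (h.fx_ne x1)).resolve_left fun e =>
        q1 ((QuotientGroup.eq_one_iff m).2 ((hσ m).2 e))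
      exact Subtype.ext ((Submodule.mem_bot ℚ).1 (a1 ▸ ⟨v.2, mem_fx.2 (congrArg Subtype.val (mem_fx.1 hv))⟩))
    exact x0 (eq_bot_iff.2 fun v hv => congrArg Subtype.val ((Submodule.mem_bot ℚ).1 (this.ge (x := ⟨v, hv⟩) trivial)))
  have e : ((⟨a, ha⟩ * ⟨b, hb⟩ : M) : M ⧸ σ.ker) = (⟨b, hb⟩ * ⟨a, ha⟩ : M) := by
    rw [QuotientGroup.mk_mul, QuotientGroup.mk_mul]
    exact IsMulCommutative.is_comm.comm _ _
  have e2 := (hσ _).1 (QuotientGroup.eq.1 e)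
  rwa [show (((⟨a, ha⟩ * ⟨b, hb⟩ : M)⁻¹ * (⟨b, hb⟩ * ⟨a, ha⟩) : M) : H) = (a * b)⁻¹ * (b * a) from rfl] at e2

theorem exists_vv {p : ℕ} [Fact p.Prime] (p2 : p ≠ 2) {P : Subgroup H} (hP : IsPGroup p P) (hn : ¬ IsCyclic P) :
    ∃ x ∈ P, ∃ y ∈ P, x ≠ 1 ∧ y ≠ 1 ∧ x * y = y * x ∧ IsCompl (Fx ρ x) (Fx ρ y) := by
  by_contra c
  refine hn (pg_isCyclic_of_rank_one p2 hP fun A hA hc => c ?_)
  obtain ⟨x, hx, y, hy, x1, y1, e⟩ := h.vv (A := A.map P.subtype) (p := p) ⟨by have := hA.1; infer_instance, by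
    rintro _ ⟨a, ha, rfl⟩; exact congrArg Subtype.val (hA.2 a ha)⟩ (by rw [← hc, card_map_of_injective P.subtype_injective])
  have := hA.1
  exact ⟨x, map_subtype_le _ hx, y, map_subtype_le _ hy, x1, y1, setLike_mul_comm hx hy, e⟩

theorem odd_comm {p : ℕ} [hp : Fact p.Prime] (p2 : p ≠ 2) {P : Subgroup H} (hP : IsPGroup p P) :
    IsMulCommutative P := by
  by_cases hn : IsCyclic P
  · infer_instance
  obtain ⟨x, hx, y, hy, x1, y1, xy, hc⟩ := h.exists_vv p2 hP hn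
  have x0 : Fx ρ x ≠ ⊥ := fun e => h.fx_ne y1 (by simpa [e] using hc.sup_eq_top)
  have y0 : Fx ρ y ≠ ⊥ := fun e => h.fx_ne x1 (by simpa [e] using hc.sup_eq_top)
  have hM : P ≤ St ρ (Fx ρ x) ⊓ St ρ (Fx ρ y) := by
    by_contra c
    obtain ⟨g, hg, h1, h2⟩ := exists_mem_normalizer_not_mem_of_lt_pgroup hP
      (M := P ⊓ (St ρ (Fx ρ x) ⊓ St ρ (Fx ρ y))) (lt_of_le_of_ne inf_le_left fun e => c (inf_eq_left.1 e))
    obtain ⟨a1, a2⟩ := h.swap x1 y1 hc ((h1 x).1 ⟨hx, mem_st_fx ρ rfl, mem_st_fx ρ xy⟩).2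
      ((h1 y).1 ⟨hy, mem_st_fx ρ xy.symm, mem_st_fx ρ rfl⟩).2 fun e => h2 ⟨hg, e⟩
    obtain ⟨k, hk⟩ := hP ⟨g, hg⟩
    obtain ⟨m, hm⟩ : Odd (p ^ k) := (hp.out.odd_of_ne_two p2).pow
    have a3 : g * (g * g) ^ m = 1 := by rw [← sq, ← pow_mul, ← pow_succ', ← hm]; exact congrArg Subtype.val hk
    refine h2 ⟨hg, ?_⟩
    rw [eq_inv_of_mul_eq_one_left a3]
    exact (St ρ (Fx ρ x) ⊓ St ρ (Fx ρ y)).inv_mem (Subgroup.pow_mem _ (mem_inf.2 ⟨a1.trans a2, a2.trans a1⟩) m)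
  refine ⟨⟨fun a b => Subtype.ext (inv_mul_eq_one.1 (by_contra fun c => h.fx_ne c (top_le_iff.1 ?_)))⟩⟩
  exact hc.sup_eq_top.ge.trans (sup_le (h.comm_on p2 hP x1 x0 (hM.trans inf_le_left) a.2 b.2)
    (h.comm_on p2 hP y1 y0 (hM.trans inf_le_right) a.2 b.2))

theorem odd_cyclic (hH : commutator H = ⊤) {p : ℕ} [hp : Fact p.Prime] (p2 : p ≠ 2) {P : Subgroup H}
    (hP : IsPGroup p P) [hn : P.Normal] : IsCyclic P := by
  by_contra c
  have := h.odd_comm p2 hP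
  obtain ⟨x, hx, y, hy, x1, y1, xy, hc⟩ := h.exists_vv p2 hP c
  have hM : P ≤ St ρ (Fx ρ x) ⊓ St ρ (Fx ρ y) := fun g hg =>
    ⟨mem_st_fx ρ (setLike_mul_comm hg hx), mem_st_fx ρ (setLike_mul_comm hg hy)⟩
  have sw := fun g => h.swap x1 y1 hc (hM (hn.conj_mem x hx g)) (hM (hn.conj_mem y hy g))
  have a1 := eq_top_of_perfect hH (M := St ρ (Fx ρ x) ⊓ St ρ (Fx ρ y)) fun a ha b hb =>
    ⟨(sw b hb).1.trans (sw a ha).2, (sw b hb).2.trans (sw a ha).1⟩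
  rcases h.irr (Fx ρ x) (by rintro _ ⟨g, rfl⟩ w hw; exact ((a1.ge (mem_top g)).1 w).1 hw) with e | e
  · exact h.fx_ne y1 (by simpa [e] using hc.sup_eq_top)
  · exact h.fx_ne x1 e

end DR

theorem central_of_cyclic (hH : commutator H = ⊤) {P : Subgroup H} [P.Normal] [IsCyclic P] {x : H} (hx : x ∈ P)
    (g : H) : g * x = x * g := by
  have h1 := Abelianization.commutator_subset_ker
    ((IsCyclic.mulAutMulEquiv P).toMonoidHom.comp (MulAut.conjNormal (H := P))) (hH.ge (mem_top g))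
  have h2 : MulAut.conjNormal (H := P) g = 1 := (IsCyclic.mulAutMulEquiv P).map_eq_one_iff.1 h1
  have := congrArg (fun φ : MulAut P => (φ ⟨x, hx⟩).1) h2
  exact mul_inv_eq_iff_eq_mul.1 this

theorem DR.odd_bot [Finite H] {ρ : H →* End ℚ U} (h : DR ρ) (hH : commutator H = ⊤) {p : ℕ} [hp : Fact p.Prime]
    (p2 : p ≠ 2) {P : Subgroup H} (hP : IsPGroup p P) [hn : P.Normal] : P = ⊥ := by
  have := h.odd_cyclic hH p2 hP
  obtain ⟨S, hS⟩ := hP.exists_le_sylow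
  have := h.odd_comm p2 S.isPGroup'
  exact eq_bot_iff.2 fun x hx => eq_one_of_central_in_normalizer (pResidual_eq_top_of_commutator_eq_top hH) S
    (hS hx) fun g _ => central_of_cyclic hH hx g

end Cfsg.Lib.Div
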