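import Cfsg.Agent.Lib.Div.Rep

/-!
# From `GL₂(D)` to a rational representation of rank at most two
-/

set_option autoImplicit false

namespace Cfsg.Lib.Div
open Module LinearMap Matrix

universe u

theorem le_of_lift {D : Type u} [DivisionRing D] [CharZero D] {U : Type*} [AddCommGroup U] [Module ℚ U]
    [FiniteDimensional ℚ U] (ι : U →ₗ[ℚ] (Fin 2 → D)) (hι : Function.Injective ι) {R : Set (End ℚ U)}
    (pos : 0 < finrank ℚ U) (irr : ∀ W : Submodule ℚ U, (∀ f ∈ R, ∀ w ∈ W, f w ∈ W) → W = ⊥ ∨ W = ⊤)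
    (hR : ∀ f ∈ R, ∃ M : Matrix (Fin 2) (Fin 2) D, ∀ u, ι (f u) = M *ᵥ ι u) :
    finrank ℚ U ≤ 2 * finrank ℚ (Cm R) := by
  let _ := divRing pos irr
  have : Nontrivial U := Module.nontrivial_of_finrank_pos pos
  have : Module.Finite (Cm R) U := Module.Finite.of_restrictScalars_finite ℚ _ _
  rw [← Module.finrank_mul_finrank ℚ (Cm R) U, mul_comm]
  refine Nat.mul_le_mul_right _ ?_
  let S := Algebra.adjoin ℚ R
  have hS : ∀ f ∈ S, ∃ M : Matrix (Fin 2) (Fin 2) D, ∀ u, ι (f u) = M *ᵥ ι u := by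
    intro f hf
    induction hf using Algebra.adjoin_induction with
    | mem f hf => exact hR f hf
    | algebraMap c => exact ⟨c • 1, fun u => by simp [Matrix.smul_mulVec]⟩
    | add f g _ _ h1 h2 =>
      obtain ⟨M, h1⟩ := h1; obtain ⟨N, h2⟩ := h2
      exact ⟨M + N, fun u => by simp [Matrix.add_mulVec, h1, h2]⟩
    | mul f g _ _ h1 h2 =>
      obtain ⟨M, h1⟩ := h1; obtain ⟨N, h2⟩ := h2
      exact ⟨M * N, fun u => by rw [End.mul_apply, h1, h2, Matrix.mulVec_mulVec]⟩
  have : IsSimpleModule S U := by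
    refine (isSimpleModule_iff _ _).2 ⟨fun W => ?_⟩
    rcases irr (W.restrictScalars ℚ) (fun f hf w hw => W.smul_mem ⟨f, Algebra.subset_adjoin hf⟩ hw) with e | e
    · exact .inl (Submodule.restrictScalars_injective ℚ _ _ e)
    · exact .inr (Submodule.restrictScalars_injective ℚ _ _ e)
  let b := Module.finBasis (Cm R) U
  have key : ∀ i, ∃ M : Matrix (Fin 2) (Fin 2) D, M *ᵥ ι (b i) = ι (b i) ∧ ∀ j, j ≠ i → M *ᵥ ι (b j) = 0 := by
    intro i
    let f : U →ₗ[Cm R] U := (b.coord i).smulRight (b i)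
    let F : End (End S U) U :=
      { toFun := f, map_add' := f.map_add
        map_smul' := fun φ w => f.map_smul ⟨φ.restrictScalars ℚ, fun g hg => LinearMap.ext fun x =>
          (φ.map_smul ⟨g, Algebra.subset_adjoin hg⟩ x).symm⟩ w }
    classical
    obtain ⟨r, hr⟩ := jacobson_density F (Finset.univ.image b)
    obtain ⟨M, hM⟩ := hS r r.2
    have h1 : ∀ j, M *ᵥ ι (b j) = ι (f (b j)) := fun j => by
      rw [← hM]; exact congrArg ι (hr _ (Finset.mem_image_of_mem _ (Finset.mem_univ j))).symm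
    refine ⟨M, by simp [h1, f], fun j hj => by simp [h1, f, hj]⟩
  have hli : LinearIndependent Dᵐᵒᵖ (fun i => ι (b i)) := by
    rw [Fintype.linearIndependent_iff]
    intro g hg i
    obtain ⟨M, h1, h2⟩ := key i
    have := congrArg (fun v => M *ᵥ v) hg
    simp only [Matrix.mulVec_sum, Matrix.mulVec_smul, Matrix.mulVec_zero] at this
    rw [Finset.sum_eq_single i (fun j _ hj => by rw [h2 j hj, smul_zero]) (by simp), h1, smul_eq_zero] at this
    exact this.resolve_right fun e => b.ne_zero i (hι (by simpa using e))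
  have : Module.Finite Dᵐᵒᵖ D := Module.Finite.equiv (MulOpposite.opLinearEquiv Dᵐᵒᵖ (M := D)).symm
  have h2 : finrank Dᵐᵒᵖ (Fin 2 → D) = 2 := by
    rw [Module.finrank_pi_fintype, (MulOpposite.opLinearEquiv Dᵐᵒᵖ (M := D)).finrank_eq]
    simp
  simpa [h2] using hli.fintype_card_le_finrank

theorem exists_dr {D : Type u} [DivisionRing D] [CharZero D] {H : Type*} [Group H] [Finite H]
    (φ : H →* (Matrix (Fin 2) (Fin 2) D)ˣ) {h0 : H} (hφ : φ h0 ≠ 1) :
    ∃ (U : Type u) (_ : AddCommGroup U) (_ : Module ℚ U) (ρ : H →* End ℚ U),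
      DR0 (Set.range ρ) ∧ ∃ h, ρ h ≠ 1 := by
  classical
  have := Fintype.ofFinite H
  let L : H → End ℚ (Fin 2 → D) := fun h =>
    { toFun := fun v => (φ h).1 *ᵥ v, map_add' := Matrix.mulVec_add _
      map_smul' := fun c v => Matrix.mulVec_smul _ c v }
  have hL : ∀ h v, L h v = (φ h).1 *ᵥ v := fun _ _ => rfl
  have hm : ∀ g h v, L (g * h) v = L g (L h v) := fun g h v => by
    rw [hL, hL, hL, map_mul, Units.val_mul, Matrix.mulVec_mulVec]
  let P : Submodule ℚ (Fin 2 → D) → Prop := fun W =>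
    (∀ h, ∀ w ∈ W, L h w ∈ W) ∧ W ≠ ⊥ ∧ W ≤ ker (∑ h, L h) ∧ FiniteDimensional ℚ W
  obtain ⟨v, hv⟩ : ∃ v, L h0 v - v ≠ 0 := by
    by_contra! c
    refine hφ (Units.ext (Matrix.ext fun i j => ?_))
    have := congrFun (sub_eq_zero.1 (c (Pi.single j 1))) i
    simpa [hL, Matrix.one_apply, Pi.single_apply] using this
  have hP : ∃ W, P W := by
    refine ⟨Submodule.span ℚ (Set.range fun h => L h (L h0 v - v)), fun h w hw => ?_, fun e => hv ?_, ?_,
      FiniteDimensional.span_of_finite ℚ (Set.finite_range _)⟩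
    · refine Submodule.mem_comap.1 ((Submodule.span_le (p := Submodule.comap (L h) _)).2 ?_ hw)
      rintro _ ⟨g, rfl⟩
      exact Submodule.subset_span ⟨h * g, hm _ _ _⟩
    · have := Submodule.subset_span (R := ℚ) (s := Set.range fun h => L h (L h0 v - v)) ⟨1, rfl⟩
      rw [e] at this
      simpa [hL] using this
    · rw [Submodule.span_le]
      rintro _ ⟨g, rfl⟩
      simp only [SetLike.mem_coe, mem_ker, LinearMap.sum_apply, map_sub, ← hm]
      rw [sub_eq_zero]
      exact (Equiv.sum_comp (Equiv.mulRight (g * h0)) fun h => L h v).trans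
        (Equiv.sum_comp (Equiv.mulRight g) fun h => L h v).symm
  obtain ⟨W, ⟨h1, h2, h3, h4⟩, hmin⟩ := (measure fun W : Submodule ℚ (Fin 2 → D) => finrank ℚ W).wf.has_min
    {W | P W} hP
  let ρ : H →* End ℚ W :=
    { toFun := fun h => (L h).restrict (h1 h)
      map_one' := LinearMap.ext fun w => Subtype.ext (by simp [hL])
      map_mul' := fun g h => LinearMap.ext fun w => Subtype.ext (hm _ _ _) }
  have pos : 0 < finrank ℚ W := Nat.pos_of_ne_zero fun e => h2 (Submodule.finrank_eq_zero.1 e)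
  have irr : ∀ X : Submodule ℚ W, (∀ f ∈ Set.range ρ, ∀ w ∈ X, f w ∈ X) → X = ⊥ ∨ X = ⊤ := by
    intro X hX
    by_contra! c
    refine hmin (X.map W.subtype) ⟨?_, fun e => c.1 ?_, (Submodule.map_subtype_le _ _).trans h3, inferInstance⟩ ?_
    · rintro h _ ⟨w, hw, rfl⟩
      exact ⟨ρ h w, hX _ ⟨h, rfl⟩ w hw, rfl⟩
    · exact Submodule.map_injective_of_injective W.injective_subtype (by rw [e, Submodule.map_bot])
    · show finrank ℚ (X.map W.subtype) < finrank ℚ W
      rw [Submodule.finrank_map_subtype_eq]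
      exact Submodule.finrank_lt c.2
  refine ⟨W, inferInstance, inferInstance, ρ, ⟨h4, pos, irr,
    le_of_lift W.subtype W.injective_subtype pos irr ?_⟩, ?_⟩
  · rintro _ ⟨h, rfl⟩
    exact ⟨φ h, fun _ => rfl⟩
  · by_contra! c
    refine h2 (eq_bot_iff.2 fun w hw => ?_)
    have a1 : ∀ h, L h w = w := fun h => congrArg (fun F : End ℚ W => (F ⟨w, hw⟩).1) (c h)
    have a2 := mem_ker.1 (h3 hw)
    simp only [LinearMap.sum_apply, a1, Finset.sum_const, Finset.card_univ] at a2
    rw [← Nat.cast_smul_eq_nsmul ℚ, smul_eq_zero] at a2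
    exact a2.resolve_left (by simp)

end Cfsg.Lib.Div
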