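import Mathlib

/-!
# Rational representations of rank at most two over their commuting division algebra
-/

set_option autoImplicit false

namespace Cfsg.Lib.Div
open Module LinearMap

variable {U : Type*} [AddCommGroup U] [Module ℚ U]

/-- the commutant -/
abbrev Cm (R : Set (End ℚ U)) : Subalgebra ℚ (End ℚ U) := Subalgebra.centralizer ℚ R

/-- the bicommutant -/
abbrev Bi (R : Set (End ℚ U)) : Subalgebra ℚ (End ℚ U) := Subalgebra.centralizer ℚ (Cm R : Set (End ℚ U))

/-- subspaces stable under the commutant -/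
def Es (R : Set (End ℚ U)) (W : Submodule ℚ U) : Prop := ∀ φ ∈ Cm R, ∀ w ∈ W, φ w ∈ W

/-- `R` acts irreducibly, and the rank over the commutant is at most two -/
structure DR0 (R : Set (End ℚ U)) : Prop where
  fin : FiniteDimensional ℚ U
  pos : 0 < finrank ℚ U
  irr : ∀ W : Submodule ℚ U, (∀ f ∈ R, ∀ w ∈ W, f w ∈ W) → W = ⊥ ∨ W = ⊤
  le : finrank ℚ U ≤ 2 * finrank ℚ (Cm R)

theorem mem_bi {R : Set (End ℚ U)} {f : End ℚ U} (hf : f ∈ R) : f ∈ Bi R := fun _ hφ => (hφ f hf).symm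

theorem Es.inf {R : Set (End ℚ U)} {V W : Submodule ℚ U} (hV : Es R V) (hW : Es R W) : Es R (V ⊓ W) :=
  fun φ hφ w hw => ⟨hV φ hφ w hw.1, hW φ hφ w hw.2⟩

theorem es_ker {R : Set (End ℚ U)} {f : End ℚ U} (hf : f ∈ Bi R) : Es R (ker f) := fun φ hφ w hw => by
  have := congrArg (fun F : End ℚ U => F w) (hf φ hφ)
  simp only [End.mul_apply, mem_ker.1 hw, map_zero] at this
  exact this.symm

theorem es_range {R : Set (End ℚ U)} {f : End ℚ U} (hf : f ∈ Bi R) : Es R (range f) := by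
  rintro φ hφ _ ⟨w, rfl⟩
  exact ⟨φ w, (congrArg (fun F : End ℚ U => F w) (hf φ hφ)).symm⟩

theorem isUnit_cm {R : Set (End ℚ U)} [FiniteDimensional ℚ U]
    (irr : ∀ W : Submodule ℚ U, (∀ f ∈ R, ∀ w ∈ W, f w ∈ W) → W = ⊥ ∨ W = ⊤) (φ : Cm R) :
    IsUnit φ ∨ φ = 0 := by
  rcases irr (ker φ.1) (fun f hf w hw => by
    have := congrArg (fun F : End ℚ U => F w) (φ.2 f hf)
    simp only [End.mul_apply, mem_ker.1 hw, map_zero] at this
    exact this.symm) with h | h
  · left
    obtain ⟨u, hu⟩ := (isUnit_iff_ker_eq_bot φ.1).2 h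
    have hi : (↑u⁻¹ : End ℚ U) ∈ Cm R := fun f hf => by
      have := φ.2 f hf
      rw [← hu] at this
      exact ((Commute.units_inv_right (this : Commute f u)) : _)
    exact ⟨⟨φ, ⟨_, hi⟩, Subtype.ext (by simp [← hu]), Subtype.ext (by simp [← hu])⟩, rfl⟩
  · exact .inr (Subtype.ext (ker_eq_top.1 h))

/-- the commutant as a division ring -/
@[reducible] noncomputable def divRing {R : Set (End ℚ U)} [FiniteDimensional ℚ U] (pos : 0 < finrank ℚ U)
    (irr : ∀ W : Submodule ℚ U, (∀ f ∈ R, ∀ w ∈ W, f w ∈ W) → W = ⊥ ∨ W = ⊤) : DivisionRing (Cm R) :=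
  haveI : Nontrivial U := Module.nontrivial_of_finrank_pos pos
  DivisionRing.ofIsUnitOrEqZero (isUnit_cm irr)

namespace DR0
variable {R : Set (End ℚ U)} (h : DR0 R)
include h

theorem dvd {W : Submodule ℚ U} (hW : Es R W) : finrank ℚ (Cm R) ∣ finrank ℚ W := by
  have := h.fin
  let _ := divRing h.pos h.irr
  let W' : Submodule (Cm R) U := { W with smul_mem' := fun φ w hw => hW φ φ.2 w hw }
  have e : finrank ℚ W = finrank ℚ W' := rfl
  rw [e, ← Module.finrank_mul_finrank ℚ (Cm R) W']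
  exact dvd_mul_right _ _

theorem dpos : 0 < finrank ℚ (Cm R) := by have := h.le; have := h.pos; omega

theorem bi_le : finrank ℚ (Bi R) * finrank ℚ (Cm R) ≤ finrank ℚ U ^ 2 := by
  have := h.fin
  let _ := divRing h.pos h.irr
  have : Module.Finite (Cm R) U := Module.Finite.of_restrictScalars_finite ℚ _ _
  have h1 := Module.finrank_mul_finrank ℚ (Cm R) U
  let b := Module.finBasis (Cm R) U
  let Φ : Bi R →ₗ[ℚ] (Fin (finrank (Cm R) U) → U) :=
    { toFun := fun f i => f.1 (b i), map_add' := fun _ _ => rfl, map_smul' := fun _ _ => rfl }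
  have hΦ : Function.Injective Φ := by
    rw [← ker_eq_bot, eq_bot_iff]
    intro f hf
    let F : U →ₗ[Cm R] U :=
      { toFun := f.1, map_add' := f.1.map_add
        map_smul' := fun φ w => (congrArg (fun F : End ℚ U => F w) (f.2 φ φ.2)).symm }
    have : F = 0 := b.ext fun i => congrFun (mem_ker.1 hf) i
    exact Subtype.ext (LinearMap.ext fun w => congrArg (fun F : U →ₗ[Cm R] U => F w) this)
  have h3 := finrank_le_finrank_of_injective hΦ
  rw [Module.finrank_pi_fintype] at h3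
  simp only [Finset.sum_const, Finset.card_univ, Fintype.card_fin, smul_eq_mul] at h3
  refine (Nat.mul_le_mul_right _ h3).trans_eq ?_
  rw [sq]; nth_rw 2 [← h1]; ring

theorem tr {f : End ℚ U} (hf : f ∈ Bi R) (hi : f * f = f) :
    ∃ m : ℕ, trace ℚ U f = m * finrank ℚ (Cm R) ∧ (m = 0 → f = 0) ∧
      (f ≠ 1 → m * finrank ℚ (Cm R) < finrank ℚ U) := by
  have := h.fin
  obtain ⟨m, hm⟩ := h.dvd (es_range hf)
  have hp : IsProj (range f) f := (IsIdempotentElem.isProj_range f hi)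
  refine ⟨m, by rw [hp.trace, hm]; push_cast; ring, fun e => ?_, fun e => ?_⟩
  · rw [e, mul_zero, Submodule.finrank_eq_zero] at hm
    exact range_eq_bot.1 hm
  · rw [mul_comm, ← hm]
    refine Submodule.finrank_lt fun c => e (LinearMap.ext fun w => hp.map_id w (c ▸ Submodule.mem_top))

theorem rk : finrank ℚ U = finrank ℚ (Cm R) ∨ finrank ℚ U = 2 * finrank ℚ (Cm R) := by
  obtain ⟨m, hm⟩ := h.dvd (W := ⊤) fun _ _ _ _ => trivial
  rw [finrank_top] at hm
  have h1 := h.le; have h2 := h.pos; have h3 := h.dpos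
  have : m ≤ 2 := by by_contra c; nlinarith
  interval_cases m <;> omega

/-- a proper nonzero stable subspace has rank one -/
theorem rk_one {W : Submodule ℚ U} (hW : Es R W) (h0 : W ≠ ⊥) (h1 : W ≠ ⊤) :
    finrank ℚ W = finrank ℚ (Cm R) ∧ finrank ℚ U = 2 * finrank ℚ (Cm R) := by
  have := h.fin
  obtain ⟨m, hm⟩ := h.dvd hW
  have a1 := Submodule.finrank_lt h1
  have a2 : finrank ℚ W ≠ 0 := fun e => h0 (Submodule.finrank_eq_zero.1 e)
  have a3 := h.le; have h3 := h.dpos; have a4 := h.rk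
  have : m ≤ 1 := by by_contra c; nlinarith
  interval_cases m <;> omega

theorem dich {V W : Submodule ℚ U} (hV : Es R V) (hW : Es R W) (h1 : V ≠ ⊤) : V ≤ W ∨ V ⊓ W = ⊥ := by
  have := h.fin
  by_cases c : V ⊓ W = ⊥
  · exact .inr c
  left
  have a1 := (h.rk_one (hV.inf hW) c fun e => h1 (top_le_iff.1 (e.ge.trans inf_le_left))).1
  have a2 := (h.rk_one hV (fun e => c (by rw [e, bot_inf_eq])) h1).1
  exact inf_eq_left.1 (Submodule.eq_of_le_of_finrank_eq inf_le_left (a1.trans a2.symm))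

end DR0

end Cfsg.Lib.Div
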