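import Cfsg.Agent.Lib.Div.Square
import Cfsg.Agent.Lib.Small.Basic
import Cfsg.Agent.Lib.Golay.ProjPerm

/-!
# `SL₂(q)` with a representation of rank at most two
-/

set_option autoImplicit false
set_option linter.unusedSectionVars false

namespace Cfsg.Lib.Div
open Module LinearMap Subgroup Polynomial
open scoped MatrixGroups

variable {U : Type*} [AddCommGroup U] [Module ℚ U]

theorem DR.comp {H H' : Type*} [Group H] [Group H'] {ρ : H →* End ℚ U} (h : DR ρ) (e : H' ≃* H) :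
    DR (ρ.comp e.toMonoidHom) :=
  ⟨by rw [MonoidHom.coe_comp, Function.Surjective.range_comp (f := e.toMonoidHom) e.surjective]; exact h.toDR0, h.inj.comp e.injective⟩

section
variable {H : Type*} [Group H] [Finite H] {ρ : H →* End ℚ U}

theorem DR.frob73 (h : DR ρ) {u x : H} (u1 : u ≠ 1) (e : x * u * x⁻¹ = u ^ 2) (x3 : x ^ 3 = 1) (x1 : x ≠ 1) :
    False := by
  have : Fact (Nat.Prime 3) := ⟨Nat.prime_three⟩
  have ox : orderOf x = 3 := orderOf_eq_prime x3 x1
  have := h.frob (K := zpowers u) (C := zpowers x) (by simpa using u1)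
    (zpowers_le.2 (mem_n_zp (e ▸ pow_mem (mem_zpowers _) 2))) (by
      rintro c hc c1 _ ⟨k, rfl⟩ e'
      obtain ⟨l, hl⟩ : x ∈ zpowers c := pg_zpowers_eq_of_orderOf_prime ox hc c1 ▸ mem_zpowers x
      have a1 : x * u ^ k * x⁻¹ = u ^ k := by
        rw [← hl, ← (Commute.zpow_right e' l).eq, mul_inv_cancel_right]
      rw [← conj_zpow, e, sq, (Commute.refl u).mul_zpow] at a1
      exact mul_eq_left.1 a1)
  simp [ox] at this

theorem th_one [FiniteDimensional ℚ U] : th ρ 1 = finrank ℚ U := by rw [th, map_one, trace_one]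

theorem tr_zp (ρ : H →* End ℚ U) {x : H} {n : ℕ} (hx : orderOf x = n) :
    n * trace ℚ U (avg ρ (zpowers x)) = ∑ i ∈ Finset.range n, th ρ (x ^ i) := by
  have := Fintype.ofFinite (zpowers x)
  rw [← hx, ← Nat.card_zpowers, tr_avg, Nat.card_zpowers, Finset.sum_range,
    ← (finEquivZPowers (isOfFinOrder_of_finite x)).sum_comp]
  rfl

theorem DR.th3 (h : DR ρ) {x : H} (hx : orderOf x = 3) :
    2 * th ρ x = -finrank ℚ U ∨ (2 * th ρ x = dd[ρ] ∧ finrank ℚ U = 2 * dd[ρ]) := by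
  have := h.fin
  have a1 := tr_zp ρ hx
  have a2 : x ^ 2 = x⁻¹ := eq_inv_of_mul_eq_one_left (by rw [← pow_succ, ← pow_orderOf_eq_one x, hx])
  simp only [Finset.sum_range_succ, Finset.sum_range_zero, pow_zero, pow_one, a2, th_inv, th_one] at a1
  refine (h.tr_avg_cases (K := zpowers x) (by simpa using fun e => by simp [e] at hx)).imp (fun e => ?_)
    fun ⟨e, e'⟩ => ⟨?_, e'⟩
  · rw [e, map_zero] at a1; push_cast at a1; linarith
  · rw [e, e'] at a1; push_cast at a1; linarith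

theorem cls_ge (x : H) {c : ℕ} (hc : Nat.card (centralizer ({x} : Set H)) ≤ c) :
    (Nat.card H : ℚ) ≤ {g | IsConj x g}.ncard * c := by
  have a1 : {g | IsConj x g}.ncard = _ := sm_card_isConj_eq_index x
  rw [a1, ← (centralizer ({x} : Set H)).index_mul_card]
  exact_mod_cast Nat.mul_le_mul_left _ hc

theorem th_cls (ρ : H →* End ℚ U) {x g : H} (e : IsConj x g) : th ρ g = th ρ x := by
  obtain ⟨k, rfl⟩ := isConj_iff.1 e
  exact th_conj ρ x k

theorem DR.one_cls (h : DR ρ) (x : H) {c : ℕ} (hc : Nat.card (centralizer ({x} : Set H)) ≤ c) :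
    th ρ x ^ 2 ≤ c * dd[ρ] := by
  have := h.fin
  have a1 := mom_ge ρ {g | IsConj x g} (c := th ρ x ^ 2) fun g e => (th_cls ρ e ▸ le_rfl)
  have a2 := cls_ge x hc
  have a3 : (0 : ℚ) < Nat.card H := by exact_mod_cast Nat.card_pos
  refine le_of_mul_le_mul_left ?_ a3
  nlinarith [sq_nonneg (th ρ x)]

end

variable {F : Type*} [Field F]

/-- upper unitriangular matrices -/
def uu : Multiplicative F →* SL(2, F) where
  toFun x := ⟨!![1, x.toAdd; 0, 1], by simp [Matrix.det_fin_two]⟩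
  map_one' := by ext i j; fin_cases i <;> fin_cases j <;> simp
  map_mul' a b := Subtype.ext (show (!![1, (a * b).toAdd; 0, 1] : Matrix (Fin 2) (Fin 2) F) =
    !![1, a.toAdd; 0, 1] * !![1, b.toAdd; 0, 1] by simp [add_comm])

/-- diagonal matrices -/
def hh : Fˣ →* SL(2, F) where
  toFun a := ⟨!![a.1, 0; 0, a.1⁻¹], by simp [Matrix.det_fin_two]⟩
  map_one' := by ext i j; fin_cases i <;> fin_cases j <;> simp
  map_mul' a b := Subtype.ext (show (!![(a * b).1, 0; 0, (a * b).1⁻¹] : Matrix (Fin 2) (Fin 2) F) =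
    !![a.1, 0; 0, a.1⁻¹] * !![b.1, 0; 0, b.1⁻¹] by simp [mul_comm])

theorem uu_inj : Function.Injective (uu (F := F)) := fun _ _ e =>
  congrArg (fun M : SL(2, F) => M 0 1) e

theorem hh_inj : Function.Injective (hh (F := F)) := fun _ _ e =>
  Units.ext (congrArg (fun M : SL(2, F) => M 0 0) e)

theorem uu_coe (x : F) : (uu (.ofAdd x) : SL(2, F)).1 = !![1, x; 0, 1] := rfl
theorem hh_coe (a : Fˣ) : (hh a : SL(2, F)).1 = !![a.1, 0; 0, a.1⁻¹] := rfl

theorem hu (a : Fˣ) (x : F) : hh a * uu (.ofAdd x) = uu (.ofAdd (a.1 ^ 2 * x)) * hh a := by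
  refine Subtype.ext ?_
  rw [Matrix.SpecialLinearGroup.coe_mul, Matrix.SpecialLinearGroup.coe_mul, uu_coe, uu_coe, hh_coe]
  simp; field_simp

variable [Fintype F]

theorem DR.two_pow {ρ : SL(2, F) →* End ℚ U} (h : DR ρ) : ∃ b, Fintype.card F = 2 ^ b + 1 := by
  classical
  have h1 : 1 < Fintype.card F := Fintype.one_lt_card
  refine ⟨_, (Nat.sub_eq_iff_eq_add h1.le).1 (Nat.eq_prime_pow_of_unique_prime_dvd (by omega) fun {l} hl hd => ?_)⟩
  have := Fact.mk hl
  by_contra l2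
  obtain ⟨a, ha⟩ := exists_prime_orderOf_dvd_card (G := Fˣ) l (by rwa [Fintype.card_units])
  have := h.frob (K := uu.range) (C := (zpowers a).map hh)
    (fun e => one_ne_zero (α := F) (uu_inj ((mem_bot.1 (e ▸ ⟨.ofAdd 1, rfl⟩)).trans uu.map_one.symm)))
    (by
      rintro _ ⟨b, -, rfl⟩
      refine mem_normalizer_fintype ?_
      rintro _ ⟨x, rfl⟩
      exact ⟨_, (mul_inv_eq_iff_eq_mul.2 (hu b x.toAdd)).symm⟩) ?_
  · rw [card_map_of_injective hh_inj, Nat.card_zpowers, ha] at this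
    exact this.elim hl.one_lt.ne' fun e => l2 e.1
  rintro _ ⟨b, hb, rfl⟩ b1 _ ⟨x, rfl⟩ e
  have a1 : x.toAdd = b ^ 2 * x.toAdd := uu_inj (mul_right_cancel (e.trans (hu b x.toAdd)))
  have a2 : (b : F) ^ 2 ≠ 1 := fun e => b1 (by
    rw [orderOf_eq_one_iff.1 (Nat.eq_one_of_dvd_coprimes ((Nat.coprime_primes hl Nat.prime_two).2 l2)
      (ha ▸ orderOf_dvd_of_mem_zpowers hb) (orderOf_dvd_of_pow_eq_one (Units.ext e))), map_one])
  have a3 : x = 1 := by
    have : ((b : F) ^ 2 - 1) * x.toAdd = 0 := by rw [sub_mul, ← a1, one_mul, sub_self]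
    exact (mul_eq_zero.1 this).resolve_left (sub_ne_zero.2 a2)
  rw [a3, map_one]

theorem nt {p a b : ℕ} (hp : p.Prime) (ha : 0 < a) (e : p ^ a = 2 ^ b + 1) (hb : 4 ≤ b) : a = 1 := by
  have p2 : Odd p := (Nat.odd_pow_iff ha.ne').1 (e ▸ (Nat.even_pow.2 ⟨even_two, by omega⟩).add_one)
  have p1 := hp.one_lt
  rcases Nat.even_or_odd a with ⟨c, rfl⟩ | o
  · exfalso
    obtain ⟨m, hm⟩ : ∃ m, p ^ c = m + 1 := ⟨p ^ c - 1, by have := Nat.pow_pos (n := c) hp.pos; omega⟩
    have a1 : m * (m + 2) = 2 ^ b := by rw [pow_add, hm] at e; nlinarith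
    obtain ⟨i, -, hi⟩ := (Nat.dvd_prime_pow Nat.prime_two).1 (Dvd.intro _ a1)
    obtain ⟨j, -, hj⟩ := (Nat.dvd_prime_pow Nat.prime_two).1 (Dvd.intro_left _ a1)
    have a2 : 2 ^ 4 ≤ 2 ^ b := Nat.pow_le_pow_right (by norm_num) hb
    have a3 : 3 ≤ m := by by_contra c; nlinarith
    have k : ∀ {n i}, n = 2 ^ i → 3 ≤ n → 4 ∣ n := fun {n i} e h => by
      rcases i with _ | _ | i
      · omega
      · omega
      · exact ⟨2 ^ i, by rw [e]; ring⟩
    have := k hi a3; have := k hj (by omega); omega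
  · have a1 : (∑ i ∈ Finset.range a, p ^ i) * (p - 1) = 2 ^ b := by
      rw [Nat.geomSum_eq p1, Nat.div_mul_cancel (Nat.sub_one_dvd_pow_sub_one p a), e]; rfl
    have a2 : Odd (∑ i ∈ Finset.range a, p ^ i) := by
      rw [Finset.odd_sum_iff_odd_card_odd, Finset.filter_true_of_mem fun i _ => p2.pow]; simpa
    have a3 := Nat.eq_one_of_dvd_coprimes (Nat.Coprime.pow_right b (Nat.coprime_two_right.2 a2)) dvd_rfl
      (Dvd.intro _ a1)
    obtain ⟨c, rfl⟩ := o
    rcases c with _ | c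
    · rfl
    · rw [show 2 * (c + 1) + 1 = 2 * c + 1 + 1 + 1 by ring, Finset.sum_range_succ', Finset.sum_range_succ'] at a3
      simp only [pow_zero, zero_add, pow_one] at a3
      omega

/-- an element of order three -/
def x3 : SL(2, F) := ⟨!![0, -1; 1, -1], by simp [Matrix.det_fin_two]⟩

omit [Fintype F] in
theorem ord_x3 : orderOf (x3 : SL(2, F)) = 3 :=
  haveI : Fact (Nat.Prime 3) := ⟨Nat.prime_three⟩
  orderOf_eq_prime (Subtype.ext (show (!![0, -1; 1, -1] : Matrix (Fin 2) (Fin 2) F) ^ 3 = 1 by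
    simp [pow_succ, Matrix.one_fin_two])) fun e => zero_ne_one (α := F) (congrArg (fun M : SL(2, F) => M 0 0) e)

theorem cen_x3 [DecidableEq F] : Nat.card (centralizer ({x3} : Set SL(2, F))) ≤
    (Finset.univ.filter fun a : F × F => a.1 * a.1 - a.1 * a.2 + a.2 * a.2 = 1).card := by
  have k : ∀ M : centralizer ({x3} : Set SL(2, F)), M.1 0 1 = -M.1 1 0 ∧ M.1 1 1 = M.1 0 0 - M.1 1 0 := fun M => by
    have e : M.1.1 * !![0, -1; 1, -1] = !![0, -1; 1, -1] * M.1.1 :=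
      congrArg (fun M : SL(2, F) => M.1) (mem_centralizer_singleton_iff.1 M.2)
    have a1 := congrFun (congrFun e 0) 0
    have a2 := congrFun (congrFun e 1) 0
    simp [Matrix.mul_apply] at a1 a2
    exact ⟨a1, by linear_combination a2⟩
  rw [← Fintype.card_coe, ← Nat.card_eq_fintype_card]
  refine Nat.card_le_card_of_injective (fun M => ⟨(M.1 0 0, M.1 1 0), ?_⟩) fun M N e => ?_
  · have := M.1.det_coe
    rw [Matrix.det_fin_two, (k M).1, (k M).2] at this
    simp only [Finset.mem_filter, Finset.mem_univ, true_and]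
    linear_combination this
  · simp only [Subtype.mk.injEq, Prod.mk.injEq] at e
    ext i j; fin_cases i <;> fin_cases j <;> simp [(k M).1, (k M).2, (k N).1, (k N).2, e.1, e.2]

theorem cen_le : Nat.card (centralizer ({x3} : Set SL(2, F))) ≤ 2 * Fintype.card F := by
  classical
  refine cen_x3.trans (Finset.card_le_mul_card_image_of_maps_to (f := Prod.snd) (t := Finset.univ) (by simp) 2
    fun b _ => ?_)
  by_contra c
  obtain ⟨⟨x, b1⟩, ⟨y, b2⟩, ⟨w, b3⟩, hx, hy, hw, xy, xw, yw⟩ := Finset.two_lt_card_iff.1 (not_le.1 c)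
  simp only [Finset.mem_filter, Finset.mem_univ, true_and] at hx hy hw
  obtain ⟨hx, e1⟩ := hx; obtain ⟨hy, e2⟩ := hy; obtain ⟨hw, e3⟩ := hw
  subst b1 b2 b3
  simp only [ne_eq, Prod.mk.injEq, and_true] at xy xw yw
  have a1 := mul_left_cancel₀ (sub_ne_zero.2 xy) (show (x - y) * (x + y) = (x - y) * b by linear_combination hx - hy)
  have a2 := mul_left_cancel₀ (sub_ne_zero.2 xw) (show (x - w) * (x + w) = (x - w) * b by linear_combination hx - hw)
  exact yw (add_left_cancel (a1.trans a2.symm))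

theorem DR.lb {p : ℕ} [hp : Fact p.Prime] {ρ : SL(2, ZMod p) →* End ℚ U} (h : DR ρ) :
    (p - 1) * ((p - 1) / 2) * dd[ρ] ≤ finrank ℚ U ^ 2 := by
  have := h.fin
  refine le_trans (Nat.mul_le_mul_right _ ?_) h.bi_le
  obtain ⟨X, hXd⟩ : ∃ X : ZMod p → End ℚ U, ∀ x, X x = ρ (uu (.ofAdd x)) := ⟨_, fun _ => rfl⟩
  have hX : ∀ a b, X (a + b) = X a * X b := fun a b => by simp only [hXd, ofAdd_add, map_mul]
  have hX1 : ∀ i : ℕ, X i = X 1 ^ i := fun i => by
    simp only [hXd, ← map_pow, ← ofAdd_nsmul, nsmul_eq_mul, mul_one]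
  have hXh : ∀ a x, ρ (hh a) * X x = X (a ^ 2 * x) * ρ (hh a) := fun a x => by simp only [hXd, ← map_mul, hu]
  obtain ⟨N, hN⟩ : ∃ N, N = ∑ x, X x := ⟨_, rfl⟩
  have n1 : ∀ d : ZMod p, d ≠ 0 → ∑ x, X (d * x) = N := fun d hd => hN ▸ Equiv.sum_comp (Equiv.mulLeft₀ d hd) X
  have n2 : ∀ a, X a * N = N := fun a => by
    rw [hN, Finset.mul_sum]; simp only [← hX]; exact Equiv.sum_comp (Equiv.addLeft a) X
  have n3 : ∀ a, N * X a = N := fun a => by
    rw [hN, Finset.sum_mul]; simp only [← hX]; exact Equiv.sum_comp (Equiv.addRight a) X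
  have n4 : ∀ a, ρ (hh a) * N = N * ρ (hh a) := fun a => by
    nth_rw 2 [← n1 (a ^ 2) (by simp)]
    rw [hN, Finset.mul_sum, Finset.sum_mul]; simp only [hXh]
  have n5 : N * (p - N) = 0 := by
    nth_rw 1 [hN]
    rw [mul_sub, Finset.sum_mul, Finset.sum_mul]
    simp [n2, ← Finset.sum_mul, ← hN, (Nat.cast_comm p N)]
  have n6 : (p : End ℚ U) - N ≠ 0 := fun e => by
    have a1 := n2 1
    rw [← sub_eq_zero.1 e, ← Nat.cast_comm, ← nsmul_eq_mul, ← nsmul_one, ← Nat.cast_smul_eq_nsmul ℚ,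
      ← Nat.cast_smul_eq_nsmul ℚ, smul_right_inj (by exact_mod_cast hp.out.ne_zero), ← ρ.map_one, ← uu.map_one] at a1
    have a2 := uu_inj (h.inj ((hXd 1).symm.trans a1))
    exact one_ne_zero (α := ZMod p) a2
  have n7 : aeval (X 1) (cyclotomic p ℚ) = N := by
    rw [cyclotomic_prime, map_sum, hN]
    refine Finset.sum_nbij' (fun i => (i : ZMod p)) ZMod.val (by simp) (by simp [ZMod.val_lt])
      (fun i hi => ZMod.val_cast_of_lt (Finset.mem_range.1 hi)) (by simp) fun i _ => by simp [hX1]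
  have nb : (p : End ℚ U) - N ∈ Bi (Set.range ρ) :=
    sub_mem (natCast_mem _ p) (hN ▸ sum_mem fun x _ => hXd x ▸ bi_rho ρ _)
  have n8 : ∀ a, X a * (p - N) = (p - N) * X a := fun a => by rw [mul_sub, sub_mul, n2, n3, Nat.cast_comm]
  have n9 : ∀ a, ρ (hh a) * (p - N) = (p - N) * ρ (hh a) := fun a => by rw [mul_sub, sub_mul, n4, Nat.cast_comm]
  generalize (p : End ℚ U) - N = π at n5 n6 nb n8 n9
  obtain ⟨g, hg⟩ := IsCyclic.exists_ofOrder_eq_natCard (α := (ZMod p)ˣ)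
  rw [Nat.card_units, Nat.card_zmod] at hg
  have hli : LinearIndependent ℚ fun ij : Fin (p - 1) × Fin ((p - 1) / 2) => (⟨X (ij.1 : ℕ) * ρ (hh (g ^ (ij.2 : ℕ))) * π,
      mul_mem (mul_mem (hXd _ ▸ bi_rho ρ _) (bi_rho ρ _)) nb⟩ : Bi (Set.range ρ)) := by
    refine LinearIndependent.of_comp (Bi (Set.range ρ)).val.toLinearMap (Fintype.linearIndependent_iff.2 ?_)
    rintro c hc ⟨i0, j0⟩
    replace hc : ∑ ij : Fin (p - 1) × Fin ((p - 1) / 2), c ij • (X (ij.1 : ℕ) * ρ (hh (g ^ (ij.2 : ℕ))) * π) = 0 := hc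
    let Φ : End ℚ U →ₗ[ℚ] End ℚ U := ∑ m, (mulLeft ℚ (X ((g ^ (j0 : ℕ)) ^ 2 * m))).comp
      (mulRight ℚ (X (-m) * ρ (hh (g ^ (j0 : ℕ))⁻¹)))
    have k : ∀ (i : ℕ) (j : Fin ((p - 1) / 2)), Φ (X i * ρ (hh (g ^ (j : ℕ))) * π) =
        if j = j0 then (p : ℚ) • (X i * π) else 0 := fun i j => by
      have a1 : ∀ m, X ((g ^ (j0 : ℕ)) ^ 2 * m) * (X i * ρ (hh (g ^ (j : ℕ))) * π * (X (-m) * ρ (hh (g ^ (j0 : ℕ))⁻¹))) =
          X i * X (((g ^ (j0 : ℕ)) ^ 2 - (g ^ (j : ℕ) : (ZMod p)ˣ) ^ 2) * m) * π *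
            (ρ (hh (g ^ (j : ℕ))) * ρ (hh (g ^ (j0 : ℕ))⁻¹)) := fun m => by
        rw [← mul_assoc, ← mul_assoc, ← mul_assoc, mul_assoc _ π, ← n8, ← mul_assoc, ← mul_assoc, mul_assoc _ (ρ _), hXh,
          ← mul_assoc, mul_assoc _ (ρ _), n9, ← mul_assoc, ← mul_assoc, ← hX, ← hX, ← hX]
        congr 4; push_cast; ring
      simp only [Φ, LinearMap.sum_apply, comp_apply, mulLeft_apply, mulRight_apply, a1]
      split_ifs with e
      · rw [e, ← map_mul, ← map_mul, mul_inv_cancel]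
        simp [hXd, Nat.cast_smul_eq_nsmul]
      · rw [← Finset.sum_mul, ← Finset.sum_mul, ← Finset.mul_sum, n1 _ (sub_ne_zero.2 fun e' => e ?_), n2, n5, zero_mul]
        have a2 : g ^ (j0 * 2 : ℕ) = g ^ (j * 2 : ℕ) := Units.ext (by simpa [pow_mul] using e')
        have := pow_injOn_Iio_orderOf (by simp only [Set.mem_Iio, hg]; omega) (by simp only [Set.mem_Iio, hg]; omega) a2
        exact Fin.ext (by omega)
    have a1 := congrArg Φ hc
    simp only [map_sum, map_smul, map_zero, k, Fintype.sum_prod_type, smul_ite, smul_zero,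
      Finset.sum_ite_eq', Finset.mem_univ, if_true, smul_comm _ (p : ℚ), ← Finset.smul_sum] at a1
    rw [smul_eq_zero] at a1
    replace a1 := a1.resolve_left (by exact_mod_cast hp.out.ne_zero)
    let f : ℚ[X] := ∑ i : Fin (p - 1), monomial i (c (i, j0))
    have a2 : aeval (X 1) f * π = 0 := by
      rw [← a1, map_sum, Finset.sum_mul]
      simp [aeval_monomial, hX1, Algebra.smul_def, mul_assoc]
    have a3 : f = 0 := by_contra fun f0 => n6 (by
      obtain ⟨a, b, e⟩ := (cyclotomic.irreducible_rat hp.out.pos).coprime_iff_not_dvd.2 fun e => by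
        have := natDegree_le_of_dvd e f0
        rw [natDegree_cyclotomic, Nat.totient_prime hp.out] at this
        have a4 : f.natDegree ≤ p - 2 := natDegree_sum_le_of_forall_le _ _ fun i _ =>
          (natDegree_monomial_le _).trans (by omega)
        have := hp.out.two_le
        omega
      have := congrArg (fun q => aeval (X 1) q * π) e
      simpa [add_mul, mul_assoc, a2, n7, n5] using this.symm)
    simpa [f, coeff_monomial, Fin.val_inj] using congrArg (fun q => q.coeff i0) a3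
  simpa using hli.fintype_card_le_finrank

instance fact17 : Fact (Nat.Prime 17) := ⟨by norm_num⟩

theorem DR.not17 {ρ : SL(2, ZMod 17) →* End ℚ U} (h : DR ρ) : False := by
  have := h.fin
  have lb : (128 : ℚ) * dd[ρ] ≤ finrank ℚ U ^ 2 := by exact_mod_cast h.lb
  have d0 : (0 : ℚ) < dd[ρ] := by exact_mod_cast h.dpos
  have hc : Nat.card (centralizer ({x3} : Set SL(2, ZMod 17))) ≤ 18 := cen_x3.trans (by decide +kernel)
  rcases h.th3 ord_x3 with e | ⟨e, e'⟩
  · have := h.one_cls x3 hc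
    push_cast at this
    nlinarith
  obtain ⟨y, hy⟩ : ∃ y : SL(2, ZMod 17), y ^ 3 = x3 := ⟨⟨!![2, 9; 8, 11], by decide⟩, by decide⟩
  have x3' : (x3 : SL(2, ZMod 17)) ^ 3 = 1 := ord_x3 (F := ZMod 17) ▸ pow_orderOf_eq_one x3
  have y9 : y ^ 9 = 1 := by rw [show 9 = 3 * 3 from rfl, pow_mul, hy, x3']
  have : Fact (Nat.Prime 3) := ⟨Nat.prime_three⟩
  have oy : orderOf y = 9 := orderOf_eq_prime_pow (p := 3) (n := 1) (by rw [pow_one, hy]; decide) y9
  have a1 := tr_zp ρ oy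
  have k : ∀ i j, i + j = 9 → th ρ (y ^ i) = th ρ (y ^ j) := fun i j e => by
    rw [← th_inv, ← eq_inv_of_mul_eq_one_right (a := y ^ i) (b := y ^ j) (by rw [← pow_add, e, y9])]
  simp only [Finset.sum_range_succ, Finset.sum_range_zero, pow_zero, k 5 4 rfl, k 6 3 rfl, k 7 2 rfl, k 8 1 rfl,
    hy, th_one, e'] at a1
  push_cast at a1
  obtain ⟨w, w1, w2⟩ : ∃ w : SL(2, ZMod 17), (w ^ 3 = x3 ∨ w ^ 3 = x3 ^ 2) ∧ (dd[ρ] : ℚ) ^ 2 / 4 ≤ th ρ w ^ 2 := by
    by_contra! c
    have c1 := c (y ^ 1) (.inl (by rw [pow_one, hy]))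
    have c2 := c (y ^ 2) (.inr (by rw [← pow_mul, mul_comm, pow_mul, hy]))
    have c4 := c (y ^ 4) (.inl (by rw [← pow_mul, mul_comm, pow_mul, hy, pow_succ, x3', one_mul]))
    have k : ∀ {a : ℚ}, dd[ρ] ^ 2 / 4 > a ^ 2 → -(dd[ρ] / 2 : ℚ) < a ∧ a < dd[ρ] / 2 := fun e =>
      abs_lt.1 (abs_lt_of_sq_lt_sq (by linarith) (by positivity))
    have := k c1; have := k c2; have := k c4
    rcases h.tr_avg_cases (K := zpowers y) (by simpa using fun e => by simp [e] at oy) with c | ⟨c, -⟩ <;>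
      simp only [c, map_zero] at a1 <;> linarith
  have hz : ρ (-1) = -1 := h.central_neg (by simp) (by simp) (by decide)
  have b1 := cls_ge x3 hc
  have b2 := cls_ge (-x3 : SL(2, ZMod 17)) (c := 18) (hc.trans' (card_le_of_le fun g hg =>
    mem_centralizer_singleton_iff.2 (by simpa using mem_centralizer_singleton_iff.1 hg)))
  have b3 := cls_ge w (c := 18) (hc.trans' (card_le_of_le fun g hg => mem_centralizer_singleton_iff.2 (by
    have a : Commute g (w ^ 3) := Commute.pow_right (mem_centralizer_singleton_iff.1 hg) 3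
    rcases w1 with e | e <;> rw [e] at a
    · exact a
    · have := a.pow_right 2
      rwa [← pow_mul, pow_succ, x3', one_mul] at this)))
  have k3 : ∀ {a g : SL(2, ZMod 17)}, IsConj a g → ∀ c ∈ center SL(2, ZMod 17), (g ^ 3 = c ↔ a ^ 3 = c) :=
    fun {a g} e c hc => by
      obtain ⟨k, rfl⟩ := isConj_iff.1 e
      rw [conj_pow, mul_inv_eq_iff_eq_mul, ← mem_center_iff.1 hc, mul_right_inj]
  have m1 : (-1 : SL(2, ZMod 17)) ∈ center _ := mem_center_iff.2 (by simp)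
  have b4 := mom_ge ρ (({g | IsConj x3 g} ∪ {g | IsConj (-x3) g}) ∪ {g | IsConj w g}) (c := dd[ρ] ^ 2 / 4) (by
    rintro g ((c | c) | c) <;> rw [th_cls ρ c]
    · nlinarith
    · rw [← neg_one_mul, th, map_mul, hz, neg_one_mul, map_neg]; nlinarith
    · exact w2)
  have dj : Disjoint {g : SL(2, ZMod 17) | IsConj x3 g} {g | IsConj (-x3) g} := Set.disjoint_left.2 fun g c c' =>
    absurd ((k3 c' 1 (one_mem _)).1 ((k3 c 1 (one_mem _)).2 x3')) (by decide)
  rw [Set.ncard_union_eq (Set.disjoint_left.2 ?_), Set.ncard_union_eq dj] at b4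
  · have a3 : (0 : ℚ) < Nat.card SL(2, ZMod 17) := by exact_mod_cast Nat.card_pos
    rw [e'] at lb
    push_cast at b1 b2 b3 b4 lb
    have b5 : (32 : ℚ) ≤ dd[ρ] := by nlinarith
    have b6 : (Nat.card SL(2, ZMod 17) : ℚ) * dd[ρ] * dd[ρ] ≤ Nat.card SL(2, ZMod 17) * dd[ρ] * 24 := by nlinarith
    have := le_of_mul_le_mul_left b6 (by positivity)
    linarith
  · rintro g (c | c) c'
    · have := (k3 c' 1 (one_mem _)).1 ((k3 c 1 (one_mem _)).2 x3')
      rcases w1 with e | e <;> rw [e] at this <;> exact absurd this (by decide)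
    · have := (k3 c' _ m1).1 ((k3 c _ m1).2 (by decide))
      rcases w1 with e | e <;> rw [e] at this <;> exact absurd this (by decide)

theorem DR.sl2 {ρ : SL(2, F) →* End ℚ U} (h : DR ρ) (h1 : Odd (Fintype.card F)) (h3 : 3 < Fintype.card F) :
    Fintype.card F = 5 ∨ Fintype.card F = 9 := by
  obtain ⟨b, hb⟩ := h.two_pow
  by_contra c
  have b4 : 4 ≤ b := by
    by_contra c'
    interval_cases b <;> omega
  obtain ⟨p, hp, a, ha⟩ := FiniteField.card' F
  have a1 := nt ha.1 a.pos (ha.2.symm.trans hb) b4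
  replace ha := And.intro ha.1 (ha.2.trans (by rw [a1, pow_one]) : _ = p)
  have := Fact.mk ha.1
  obtain ⟨σ, h'⟩ : ∃ σ : SL(2, ZMod p) →* End ℚ U, DR σ :=
    ⟨_, h.comp (PC.slCongr (ZMod.ringEquivOfPrime F ha.1 ha.2))⟩
  have e := ha.2.symm.trans hb
  by_cases b5 : b = 4
  · subst b5
    obtain rfl : p = 17 := e
    exact h'.not17
  have p1 : 129 ≤ p := by
    by_cases b6 : b < 7
    · interval_cases b
      · omega
      · exact absurd ha.1 (by rw [e]; norm_num)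
      · exact absurd ha.1 (by rw [e]; norm_num)
    · have : 2 ^ 7 ≤ 2 ^ b := Nat.pow_le_pow_right (by norm_num) (by omega)
      omega
  have lb := h'.lb
  have a2 := h'.one_cls x3 cen_le
  have d0 := h'.dpos
  have a3 : (dd[σ] : ℚ) ^ 2 ≤ 4 * th σ x3 ^ 2 := by
    rcases h'.th3 ord_x3 with e | ⟨e, -⟩
    · have : (dd[σ] : ℚ) ≤ finrank ℚ U := by exact_mod_cast (by rcases h'.rk with e | e <;> omega)
      nlinarith [show (0 : ℚ) < dd[σ] by exact_mod_cast d0]
    · nlinarith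
  rw [ZMod.card] at a2
  have a4 : dd[σ] * dd[σ] ≤ 8 * p * dd[σ] := by
    have : (dd[σ] : ℚ) * dd[σ] ≤ 8 * p * dd[σ] := by push_cast at a2; nlinarith
    exact_mod_cast this
  have a5 := Nat.le_of_mul_le_mul_right a4 d0
  have a6 : finrank ℚ U ^ 2 ≤ 4 * dd[σ] * dd[σ] := by have := h'.le; nlinarith
  have a7 := Nat.le_of_mul_le_mul_right (lb.trans a6) d0
  obtain ⟨m, rfl⟩ : ∃ m, p = 2 * m + 1 := ha.2 ▸ h1
  rw [Nat.add_sub_cancel, Nat.mul_div_cancel_left _ two_pos] at a7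
  have a8 : 2 * m * m ≤ 4 * (8 * (2 * m + 1)) := a7.trans (Nat.mul_le_mul_left 4 a5)
  have a9 : 64 * m ≤ m * m := Nat.mul_le_mul_right m (by omega)
  rw [mul_assoc] at a8
  omega

end Cfsg.Lib.Div
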