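import Cfsg.Agent.Lib.Div.Odd

/-!
# A reflection outside `O₂` is not a square
-/

set_option autoImplicit false

namespace Cfsg.Lib.Div
open Module LinearMap Subgroup

variable {H U : Type*} [Group H] [AddCommGroup U] [Module ℚ U]

theorem pzp {x : H} (k : ℕ) (h : x ^ 2 ^ k = 1) : IsPGroup 2 (zpowers x) := by
  rintro ⟨_, n, rfl⟩
  exact ⟨k, Subtype.ext (by
    show (x ^ n) ^ 2 ^ k = 1
    rw [← zpow_natCast, ← zpow_mul, mul_comm, zpow_mul, zpow_natCast, h, one_zpow])⟩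

variable [Finite H]

theorem mem_n_zp {t w : H} (h : t * w * t⁻¹ ∈ zpowers w) : t ∈ normalizer (zpowers w : Set H) := by
  refine mem_normalizer_fintype ?_
  rintro _ ⟨k, rfl⟩
  rw [← conj_zpow]
  exact zpow_mem h k

theorem exists_odd_inv {t : H} (tt : t * t = 1) (ht : t ∉ pCore 2 H) :
    ∃ y : H, y ≠ 1 ∧ Odd (orderOf y) ∧ t * y * t⁻¹ = y⁻¹ := by
  by_contra! c
  refine ht (baerSuzuki t fun g => ?_)
  have ti : t⁻¹ = t := inv_eq_of_mul_eq_one_right tt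
  have hw : t * (t * (g * t * g⁻¹)) * t⁻¹ = (t * (g * t * g⁻¹))⁻¹ := by
    simp only [mul_inv_rev, inv_inv, ti, ← mul_assoc, tt, one_mul]
  have e : g * t * g⁻¹ = t⁻¹ * (t * (g * t * g⁻¹)) := by group
  generalize t * (g * t * g⁻¹) = w at hw e
  obtain ⟨k, m, hm, hk⟩ := Nat.exists_eq_two_pow_mul_odd (orderOf_pos w).ne'
  have h1 : w ^ 2 ^ k = 1 := by_contra fun e => c _ e (by
    rw [orderOf_pow, hk, Nat.gcd_mul_right_left, Nat.mul_div_cancel_left _ (by positivity)]; exact hm)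
    (by rw [← conj_pow, hw, inv_pow])
  have h2 : IsPGroup 2 (zpowers t ⊔ zpowers w : Subgroup H) :=
    IsPGroup.to_sup_of_normal_right' (pzp 1 (by rw [pow_one, sq, tt])) (pzp k h1)
      (zpowers_le.2 (mem_n_zp (hw ▸ inv_mem (mem_zpowers _))))
  refine h2.to_le ((closure_le _).2 ?_)
  rintro _ (rfl | rfl)
  · exact mem_sup_left (mem_zpowers _)
  · rw [e]; exact mul_mem (mem_sup_left (inv_mem (mem_zpowers _))) (mem_sup_right (mem_zpowers _))

theorem lattice {ρ : H →* End ℚ U} {F μ : End ℚ U} (hμ : μ ∈ Algebra.adjoin ℤ (Set.range ρ))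
    (h : F = 2 • (F * μ)) : F = 0 := by
  have hfg : (Algebra.adjoin ℤ (Set.range ρ)).toSubmodule.FG := by
    rw [Algebra.adjoin_eq_span, ← MonoidHom.coe_mrange, Submonoid.closure_eq]
    exact Submodule.fg_span (Set.finite_range ρ)
  obtain ⟨r, h1, h2⟩ := Submodule.exists_sub_one_mem_and_smul_eq_zero_of_fg_of_le_smul (Ideal.span {(2 : ℤ)})
    _ (hfg.map (LinearMap.mulLeft ℤ F)) (by
      rintro _ ⟨x, hx, rfl⟩
      have : mulLeft ℤ F x = (2 : ℤ) • mulLeft ℤ F (μ * x) := by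
        simp only [mulLeft_apply]; nth_rw 1 [h]; rw [smul_mul_assoc, mul_assoc, ofNat_zsmul]
      rw [this]
      exact Submodule.smul_mem_smul (Ideal.mem_span_singleton_self _) ⟨_, Subalgebra.mul_mem _ hμ hx, rfl⟩)
  have h3 := h2 _ ⟨1, Subalgebra.one_mem _, rfl⟩
  rw [mulLeft_apply, mul_one, ← Int.cast_smul_eq_zsmul ℚ, smul_eq_zero, Int.cast_eq_zero] at h3
  refine h3.resolve_left fun e => ?_
  rw [e, Ideal.mem_span_singleton] at h1
  omega

namespace DR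
variable {ρ : H →* End ℚ U} (h : DR ρ)
include h

theorem not_sq_aux {κ : H} (tt : κ * κ * (κ * κ) = 1) (ht : κ * κ ∉ pCore 2 H) (hκ : Fx ρ (κ * κ) ≤ Fx ρ κ) :
    False := by
  obtain ⟨t, et⟩ : ∃ t, t = κ * κ := ⟨_, rfl⟩
  rw [← et] at tt ht hκ
  obtain ⟨y, y1, yo, hy⟩ := exists_odd_inv tt ht
  have t1 : t ≠ 1 := fun e => ht (e ▸ one_mem _)
  have ot : orderOf t = 2 := orderOf_eq_prime (by rw [sq, tt]) t1
  have h0 : avg ρ (zpowers y) = 0 := by
    refine ((h.frob (K := zpowers y) (C := zpowers t) (by simpa using y1)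
      (zpowers_le.2 (mem_n_zp (hy ▸ inv_mem (mem_zpowers _)))) ?_).resolve_left (by simp [ot])).2
    rintro c hc c1 _ ⟨k, rfl⟩ e
    rw [(pg_mem_zpowers_order_two (by rw [sq, tt]) hc).resolve_left c1] at e
    have a1 : (y ^ k) ^ 2 = 1 := by
      rw [sq]; nth_rw 1 [← mul_inv_cancel_right (y ^ k) t]
      rw [e, ← conj_zpow, hy, inv_zpow, inv_mul_cancel]
    exact orderOf_eq_one_iff.1 (Nat.eq_one_of_dvd_coprimes (Nat.coprime_two_right.2 yo)
      (orderOf_dvd_of_mem_zpowers ⟨k, rfl⟩) (orderOf_dvd_of_pow_eq_one a1))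
  obtain ⟨n, hn⟩ := yo
  have yn : y ^ (2 * n + 1) = 1 := by rw [← hn, pow_orderOf_eq_one]
  have h1 : ∑ i ∈ Finset.range (2 * n + 1), ρ ((y ^ 2) ^ i) = 0 := by
    refine LinearMap.ext fun v => ?_
    have a1 := mem_fx.1 (sum_mem_fx ρ (g := y ^ 2) (p := 2 * n + 1) (by rw [← pow_mul, mul_comm, pow_mul, yn, one_pow]) v)
    rw [LinearMap.sum_apply]
    generalize ∑ i ∈ Finset.range (2 * n + 1), ρ ((y ^ 2) ^ i) v = w at a1
    have a2 : zpowers (y ^ 2) ≤ (MulAction.stabilizer (End ℚ U)ˣ w).comap ρ.toHomUnits := zpowers_le.2 a1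
    have a3 : y ∈ zpowers (y ^ 2) := by
      have := pow_mem (mem_zpowers (y ^ 2)) (n + 1)
      rwa [← pow_mul, show 2 * (n + 1) = 2 * n + 1 + 1 by ring, pow_succ y (2 * n + 1), yn, one_mul] at this
    have := Fintype.ofFinite (zpowers y)
    have a4 : avg ρ (zpowers y) w = w := by
      have : ∀ k : zpowers y, ρ k w = w := fun k => a2 (zpowers_le.2 a3 k.2)
      simp [avg_eq, this, ← Nat.cast_smul_eq_nsmul ℚ, smul_smul]
    rw [← a4, h0]; rfl
  obtain ⟨c', hc'⟩ : ∃ c', c' = ρ y * ∑ i ∈ Finset.range (n + 1), ρ (y ^ 4) ^ i := ⟨_, rfl⟩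
  have h2 : (ρ y + ρ y⁻¹) * c' = 1 := by
    have a1 : ∀ m, (ρ (y ^ 2) + 1) * ∑ i ∈ Finset.range m, ρ (y ^ 4) ^ i =
        ∑ i ∈ Finset.range (2 * m), ρ ((y ^ 2) ^ i) := fun m => by
      induction m with
      | zero => simp
      | succ m ih =>
        rw [Finset.sum_range_succ, mul_add, ih, mul_add 2, mul_one, Finset.sum_range_succ, Finset.sum_range_succ,
          add_mul, one_mul, ← map_pow, ← map_mul, add_assoc, add_comm (ρ _)]
        congr 3 <;> group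
    rw [hc', ← mul_assoc, add_mul, ← map_mul, ← map_mul, inv_mul_cancel, map_one, ← sq, a1, mul_add, mul_one,
      Finset.sum_range_succ, h1, ← pow_mul, mul_comm, pow_mul, yn]
    simp
  have := h.fin
  have ti : t⁻¹ = t := inv_eq_of_mul_eq_one_right tt
  have e2 : ρ t * ρ t = 1 := by rw [← map_mul, tt, map_one]
  have e3 : ρ y * ρ t = ρ t * ρ y⁻¹ := by rw [← map_mul, ← map_mul, ← hy, ← mul_assoc, ← mul_assoc, tt, ti, one_mul]
  have e4 : ρ y⁻¹ * ρ t = ρ t * ρ y := by rw [← map_mul, ← map_mul, ← hy, inv_mul_cancel_right]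
  have e5 : (ρ κ - 1) * ρ t = -(ρ κ - 1) := by
    refine eq_neg_of_add_eq_zero_left (LinearMap.ext fun v => ?_)
    refine (LinearMap.map_add _ _ _).symm.trans (hκ (mem_fx.2 ?_))
    rw [map_add, ← End.mul_apply, e2, add_comm]; rfl
  have e6 : ρ t * ρ κ = ρ κ * ρ t := by rw [← map_mul, ← map_mul, et, mul_assoc]
  have e7 : ρ t * (ρ κ - 1) = -(ρ κ - 1) := by rw [← e5, mul_sub, sub_mul, e6]; simp
  have e8 : Commute (ρ t) c' := by
    have a1 : Commute (ρ t) (ρ y + ρ y⁻¹) := by rw [Commute, SemiconjBy, mul_add, add_mul, e3, e4, add_comm]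
    have a2 := mul_eq_one_comm.1 h2
    calc ρ t * c' = c' * ((ρ y + ρ y⁻¹) * ρ t) * c' := by rw [← mul_assoc, a2, one_mul]
      _ = c' * ρ t := by rw [← a1.eq, mul_assoc, mul_assoc, h2, mul_one]
  have e9 : (1 - ρ t) * (c' * ρ y * (ρ κ - 1)) = ρ κ - 1 := by
    have a1 : (1 - ρ t) * ρ y * (ρ κ - 1) = (ρ y + ρ y⁻¹) * (ρ κ - 1) := by
      rw [sub_mul, sub_mul, ← e4, mul_assoc (ρ y⁻¹), e7]; noncomm_ring
    rw [← mul_assoc, ← mul_assoc, ((Commute.one_left c').sub_left e8).eq, mul_assoc c', mul_assoc c', a1,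
      ← mul_assoc, mul_eq_one_comm.1 h2, one_mul]
  have hr : ∀ g, ρ g ∈ Algebra.adjoin ℤ (Set.range ρ) := fun g => Algebra.subset_adjoin ⟨g, rfl⟩
  have hl : c' * ρ y * (ρ κ - 1) ∈ Algebra.adjoin ℤ (Set.range ρ) :=
    mul_mem (mul_mem (hc' ▸ mul_mem (hr _) (sum_mem fun i _ => pow_mem (hr _) i)) (hr _)) (sub_mem (hr _) (one_mem _))
  generalize c' * ρ y * (ρ κ - 1) = l at e9 hl
  have e10 : (ρ κ - 1) * (ρ κ - 1) = 2 • ((1 - ρ t) * l * l) := by
    nth_rw 2 [← e9]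
    rw [← mul_assoc, mul_sub, e5, e9]; noncomm_ring
  have e11 : (ρ κ - 1) * (ρ κ - 1) = -(2 • ((ρ κ - 1))) - (1 - ρ t) := by
    rw [et, map_mul]; noncomm_ring
  have e12 : (1 - ρ t) = 2 • ((1 - ρ t) * -(l * l + l)) := by
    rw [e11] at e10
    rw [mul_neg, mul_add, ← mul_assoc, smul_neg, smul_add, ← e10, e9]; abel
  exact t1 (h.inj (by rw [map_one, ← sub_eq_zero.1 (lattice (neg_mem (add_mem (mul_mem hl hl) hl)) e12)]))

theorem not_sq {z κ : H} (hz : ρ z = -1) (tt : κ * κ * (κ * κ) = 1) (ht : κ * κ ∉ pCore 2 H) : False := by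
  have k1 : κ * κ ≠ 1 := fun e => ht (e ▸ one_mem _)
  refine (h.dich (es_fx ρ (κ * κ)) (es_fx ρ κ) (h.fx_ne k1)).elim (h.not_sq_aux tt ht) fun c => ?_
  have zz : z * z = 1 := h.inj (by simp [hz])
  have e : z * κ * (z * κ) = κ * κ := by
    rw [mul_assoc, ← mul_assoc κ, h.central_of_neg hz, ← mul_assoc, ← mul_assoc, zz, one_mul]
  refine h.not_sq_aux (κ := z * κ) (by rwa [e]) (by rwa [e]) fun v hv => ?_
  rw [e] at hv
  have a1 : ρ κ v + v ∈ Fx ρ (κ * κ) ⊓ Fx ρ κ :=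
    ⟨add_mem ((mem_st_fx ρ (mul_assoc _ _ _).symm v).1 hv) hv,
      mem_fx.2 (by rw [map_add, ← rho_mul, mem_fx.1 hv, add_comm])⟩
  rw [c, Submodule.mem_bot] at a1
  rw [mem_fx, rho_mul, hz, eq_neg_of_add_eq_zero_left a1]; simp

end DR

end Cfsg.Lib.Div
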